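import Cfsg.Agent.BLK.Go.Defs
import Cfsg.Agent.INV.Rk1Solv
import Cfsg.Agent.SOLV.OddOrderCor

/-! # Perfect groups with at most one involution -/

set_option autoImplicit false

namespace CL.Go.CompB

open Subgroup

variable {L : Type*} [Group L] [Finite L]

/-- Transfer: an abelian Sylow subgroup of a perfect group meets the centre trivially. -/
theorem cen_eq_one (hp : Group.IsPerfect L) {r : ℕ} [Fact r.Prime] (P : Sylow r L)
    (hP : IsCyclic (P : Subgroup L)) {z : L} (hz : z ∈ center L) (hzP : z ∈ (P : Subgroup L)) : z = 1 := by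
  letI : CommGroup (P : Subgroup L) := IsCyclic.commGroup
  have key : ∀ (k : ℕ) (g : L), g⁻¹ * z ^ k * g ∈ (P : Subgroup L) → g⁻¹ * z ^ k * g = z ^ k := fun k g _ => by
    rw [mul_assoc, ← mem_center_iff.1 (pow_mem hz k) g, inv_mul_cancel_left]
  have e := MonoidHom.transfer_eq_pow (MonoidHom.id (P : Subgroup L)) z key
  have t : MonoidHom.transfer (MonoidHom.id (P : Subgroup L)) z = 1 := by
    have h : commutator L ≤ (MonoidHom.transfer (MonoidHom.id (P : Subgroup L))).ker :=
      Abelianization.commutator_subset_ker _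
    exact h (by rw [hp.commutator_eq_top]; trivial)
  rw [t] at e
  have e1 : z ^ (P : Subgroup L).index = 1 := (congrArg Subtype.val e).symm
  obtain ⟨k, hk⟩ := P.isPGroup' ⟨z, hzP⟩
  have e2 : z ^ r ^ k = 1 := congrArg Subtype.val hk
  have c : ((P : Subgroup L).index).Coprime (r ^ k) :=
    (((Fact.out : r.Prime).coprime_iff_not_dvd.2 P.not_dvd_index).symm).pow_right k
  rw [← orderOf_eq_one_iff]
  exact Nat.eq_one_of_dvd_coprimes c (orderOf_dvd_of_pow_eq_one e1) (orderOf_dvd_of_pow_eq_one e2)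

theorem exists_inv [Nontrivial L] (hp : Group.IsPerfect L)
    (h1 : ∀ s t : L, orderOf s = 2 → orderOf t = 2 → s = t) : ∃ z ∈ center L, orderOf z = 2 := by
  have h2 : 2 ∣ Nat.card L := by
    by_contra h
    haveI := CL.isSolvable_of_not_two_dvd L h
    exact (Group.IsSolvable.commutator_lt_top_of_nontrivial L).ne hp.commutator_eq_top
  obtain ⟨z, hz⟩ := exists_prime_orderOf_dvd_card' 2 h2
  refine ⟨z, mem_center_iff.2 fun g => ?_, hz⟩
  have := h1 (MulAut.conj g z) z (by rw [MulEquiv.orderOf_eq, hz]) hz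
  rw [MulAut.conj_apply] at this
  rw [← mul_inv_eq_iff_eq_mul, this]

theorem sq_or {s z : L} (h1 : ∀ s t : L, orderOf s = 2 → orderOf t = 2 → s = t) (hz : orderOf z = 2)
    (hs : s * s = 1) : s = 1 ∨ s = z := by
  rcases eq_or_ne s 1 with h | h
  · exact Or.inl h
  · exact Or.inr (h1 s z (orderOf_eq_prime (by rw [sq, hs]) h) hz)

theorem quat_cen {n : ℕ} (c : QuaternionGroup (2 ^ (n + 1))) (h : ∀ x, x * c = c * x) : c * c = 1 := by
  rcases c with i | i
  · have := h (QuaternionGroup.xa 0)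
    simp only [QuaternionGroup.xa_mul_a, QuaternionGroup.a_mul_xa, QuaternionGroup.xa.injEq] at this
    rw [QuaternionGroup.a_mul_a, QuaternionGroup.one_def]
    congr 1
    linear_combination this
  · exfalso
    have := h (QuaternionGroup.a 1)
    simp only [QuaternionGroup.xa_mul_a, QuaternionGroup.a_mul_xa, QuaternionGroup.xa.injEq] at this
    have h2 : ((2 : ℕ) : ZMod (2 * 2 ^ (n + 1))) = 0 := by
      push_cast
      linear_combination -this
    rw [ZMod.natCast_eq_zero_iff] at h2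
    have h3 := Nat.le_of_dvd (by norm_num) h2
    have h4 : 0 < 2 ^ n := by positivity
    rw [pow_succ] at h3
    omega

/-- The Sylow 2-subgroups are quaternion. -/
theorem quat [Nontrivial L] (hp : Group.IsPerfect L)
    (h1 : ∀ s t : L, orderOf s = 2 → orderOf t = 2 → s = t) (T : Sylow 2 L) :
    (∀ c ∈ (T : Subgroup L), c ∈ center L → c * c = 1) ∧ ∃ a ∈ (T : Subgroup L), orderOf a = 4 := by
  obtain ⟨z, hzc, hz⟩ := exists_inv hp h1
  have hzT : z ∈ (T : Subgroup L) := by
    haveI : (zpowers z).Normal := ⟨fun n hn g => by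
      rw [mem_center_iff.1 (zpowers_le.2 hzc hn) g, mul_inv_cancel_right]; exact hn⟩
    have hq : IsPGroup 2 (zpowers z) := IsPGroup.of_card (n := 1) (by rw [Nat.card_zpowers, hz]; norm_num)
    obtain ⟨Q, hQ⟩ := hq.exists_le_sylow
    obtain ⟨g, rfl⟩ := MulAction.exists_smul_eq L Q T
    have : MulAut.conj g z ∈ ((g • Q : Sylow 2 L) : Subgroup L) :=
      Subgroup.smul_mem_pointwise_smul z (MulAut.conj g) _ (hQ (mem_zpowers z))
    rwa [MulAut.conj_apply, mem_center_iff.1 hzc g, mul_inv_cancel_right] at this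
  have hr : ∀ x : (T : Subgroup L), x * x = 1 → x = 1 ∨ x = ⟨z, hzT⟩ := fun x hx =>
    (sq_or h1 hz (congrArg Subtype.val hx)).imp Subtype.ext Subtype.ext
  obtain e | ⟨n, ⟨f⟩⟩ := CL.Rk1.cyc_or_quat T.isPGroup' (CL.Rk1.rank_one_of hr)
  · rw [cen_eq_one hp T e hzc hzT, orderOf_one] at hz
    omega
  refine ⟨fun c hc hcc => ?_, (f.symm (QuaternionGroup.xa 0) : (T : Subgroup L)), SetLike.coe_mem _, ?_⟩
  · have := quat_cen (f ⟨c, hc⟩) fun x => by
      obtain ⟨y, rfl⟩ := f.surjective x
      rw [← map_mul, ← map_mul]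
      exact congrArg f (Subtype.ext (mem_center_iff.1 hcc y))
    rw [← map_mul, map_eq_one_iff f f.injective] at this
    exact congrArg Subtype.val this
  · haveI : NeZero (2 ^ (n + 1)) := ⟨by positivity⟩
    rw [Subgroup.orderOf_coe, MulEquiv.orderOf_eq, QuaternionGroup.orderOf_xa]

theorem card_center [Nontrivial L] (hp : Group.IsPerfect L)
    (h1 : ∀ s t : L, orderOf s = 2 → orderOf t = 2 → s = t)
    (hc : ∀ r : ℕ, r.Prime → r ≠ 2 → r ∣ Nat.card (center L) → ∀ K : Subgroup L, IsPGroup r K → IsCyclic K) :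
    Nat.card (center L) = 2 := by
  obtain ⟨z, hzc, hz⟩ := exists_inv hp h1
  have h2 : IsPGroup 2 (center L) := by
    refine IsPGroup.of_card (n := (Nat.card (center L)).primeFactorsList.length)
      (Nat.eq_prime_pow_of_unique_prime_dvd Nat.card_pos.ne' fun {r} hr hd => ?_)
    by_contra h
    haveI := Fact.mk hr
    obtain ⟨c, hco⟩ := exists_prime_orderOf_dvd_card' r hd
    have ho : orderOf (c : L) = r := by rw [Subgroup.orderOf_coe, hco]
    have hq : IsPGroup r (zpowers (c : L)) := IsPGroup.of_card (n := 1) (by rw [Nat.card_zpowers, ho, pow_one])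
    obtain ⟨Q, hQ⟩ := hq.exists_le_sylow
    rw [cen_eq_one hp Q (hc r hr h hd _ Q.isPGroup') c.2 (hQ (mem_zpowers _)), orderOf_one] at ho
    exact hr.one_lt.ne ho
  obtain ⟨T, hT⟩ := h2.exists_le_sylow
  have e : center L = zpowers z := le_antisymm (fun c hcc => by
    rcases sq_or h1 hz ((quat hp h1 T).1 c (hT hcc) hcc) with rfl | rfl
    · exact one_mem _
    · exact mem_zpowers _) (zpowers_le.2 hzc)
  rw [e, Nat.card_zpowers, hz]

theorem sub {H : Type*} [Group H] (h1 : ∀ s t : H, orderOf s = 2 → orderOf t = 2 → s = t) (A : Subgroup H) :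
    ∀ s t : A, orderOf s = 2 → orderOf t = 2 → s = t := fun s t hs ht =>
  Subtype.ext (h1 s t (by rw [Subgroup.orderOf_coe, hs]) (by rw [Subgroup.orderOf_coe, ht]))

/-- Two non-trivial perfect subgroups do not commute. -/
theorem not_comm {H : Type*} [Group H] [Finite H] (h1 : ∀ s t : H, orderOf s = 2 → orderOf t = 2 → s = t)
    (A B : Subgroup H) (hA : Group.IsPerfect A) (hB : Group.IsPerfect B) (A0 : A ≠ ⊥) (B0 : B ≠ ⊥)
    (hAB : ∀ a ∈ A, ∀ b ∈ B, a * b = b * a) : False := by
  haveI := (Subgroup.nontrivial_iff_ne_bot A).2 A0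
  haveI := (Subgroup.nontrivial_iff_ne_bot B).2 B0
  obtain ⟨T⟩ : Nonempty (Sylow 2 A) := inferInstance
  obtain ⟨U⟩ : Nonempty (Sylow 2 B) := inferInstance
  obtain ⟨c, a, aT, ha⟩ := quat hA (sub h1 A) T
  obtain ⟨-, b, -, hb⟩ := quat hB (sub h1 B) U
  have o : ∀ x : H, orderOf x = 4 → orderOf (x * x) = 2 := fun x hx => by
    rw [← sq, orderOf_pow' _ (by norm_num), hx]; norm_num
  have ha' : orderOf (a : H) = 4 := by rw [Subgroup.orderOf_coe, ha]
  have hb' : orderOf (b : H) = 4 := by rw [Subgroup.orderOf_coe, hb]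
  have e : (a : H) * a = b * b := h1 _ _ (o _ ha') (o _ hb')
  have cm := hAB a a.2 b b.2
  have s : ((a : H) * b) * (a * b) = 1 := by
    have b4 : (b : H) ^ 4 = 1 := by rw [← hb', pow_orderOf_eq_one]
    calc ((a : H) * b) * (a * b) = a * (b * a) * b := by group
      _ = (a * a) * (b * b) := by rw [← cm]; group
      _ = (b : H) ^ 4 := by rw [e, show (4 : ℕ) = 2 + 2 from rfl, pow_add, sq]
      _ = 1 := b4
  have aB : (a : H) ∈ B := by
    have m : (a : H) * b ∈ B := by
      rcases sq_or h1 (o _ hb') s with h | h <;> rw [h]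
      · exact one_mem _
      · exact mul_mem b.2 b.2
    simpa using mul_mem m (inv_mem b.2)
  have a2 := c a aT (mem_center_iff.2 fun g => Subtype.ext (hAB g g.2 a aB))
  have := orderOf_dvd_of_pow_eq_one (n := 2) (x := a) (by rw [sq, a2])
  rw [ha] at this
  omega

end CL.Go.CompB
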