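import Cfsg.Agent.BLK.Go.Defs

set_option autoImplicit false

namespace CL.Go

theorem A7.card_alt : Nat.card (alternatingGroup (Fin 7)) = 2520 := by
  have h := two_mul_nat_card_alternatingGroup (α := Fin 7)
  rw [Nat.card_perm, Nat.card_fin] at h
  have : Nat.factorial 7 = 5040 := by decide
  omega

theorem A7.ord_dvd (σ : Equiv.Perm (Fin 7)) : orderOf σ ∣ 420 := by
  rw [← Equiv.Perm.lcm_cycleType]
  refine Multiset.lcm_dvd.2 fun n hn => ?_
  have h1 := Equiv.Perm.two_le_of_mem_cycleType hn
  have h2 := (Equiv.Perm.le_card_support_of_mem_cycleType hn).trans (Finset.card_le_univ _)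
  rw [Fintype.card_fin] at h2
  interval_cases n <;> decide

/-- `A₇` has a non-cyclic subgroup of order 9; pull back. -/
theorem not_cyclic_three {L : Type*} [Group L] [Finite L]
    (e : L ⧸ Subgroup.center L ≃* alternatingGroup (Fin 7)) :
    ¬ ∀ K : Subgroup L, IsPGroup 3 K → IsCyclic K := by
  intro h
  have : Fact (Nat.Prime 3) := ⟨Nat.prime_three⟩
  let f : L →* alternatingGroup (Fin 7) := e.toMonoidHom.comp (QuotientGroup.mk' _)
  have hf : Function.Surjective f := e.surjective.comp (QuotientGroup.mk'_surjective _)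
  obtain ⟨P⟩ : Nonempty (Sylow 3 L) := inferInstance
  have := h P P.isPGroup'
  let Q : Sylow 3 (alternatingGroup (Fin 7)) := P.mapSurjective hf
  have hQ : IsCyclic (Q : Subgroup (alternatingGroup (Fin 7))) :=
    isCyclic_of_surjective (f.subgroupMap P) (f.subgroupMap_surjective P)
  have hc : Nat.card (Q : Subgroup (alternatingGroup (Fin 7))) = 9 := by
    rw [Q.card_eq_multiplicity, A7.card_alt]
    have : (2520 : ℕ).factorization 3 = 2 := by
      rw [show (2520 : ℕ) = 3 ^ 2 * 280 by norm_num, Nat.factorization_mul (by norm_num) (by norm_num),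
        Nat.Prime.factorization_pow Nat.prime_three, Finsupp.add_apply,
        Nat.factorization_eq_zero_of_not_dvd (show ¬ 3 ∣ 280 by norm_num)]
      simp
    rw [this]; norm_num
  obtain ⟨g, hg⟩ := IsCyclic.exists_ofOrder_eq_natCard (α := (Q : Subgroup (alternatingGroup (Fin 7))))
  rw [hc] at hg
  have h1 := A7.ord_dvd ((g : alternatingGroup (Fin 7)) : Equiv.Perm (Fin 7))
  rw [Subgroup.orderOf_coe, Subgroup.orderOf_coe, hg] at h1
  revert h1
  decide

theorem card_of_a7 {L : Type*} [Group L] [Finite L] (hZ : Nat.card (Subgroup.center L) = 2)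
    (e : L ⧸ Subgroup.center L ≃* alternatingGroup (Fin 7)) : Nat.card L = 5040 := by
  rw [Subgroup.card_eq_card_quotient_mul_card_subgroup (Subgroup.center L), hZ, Nat.card_congr e.toEquiv,
    A7.card_alt]

end CL.Go
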