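import Cfsg.Agent.BLK.Go.Defs

set_option autoImplicit false

namespace CL.Go

/-- `p ^ n = q Q + Q - q` with `q = p ^ a`, `Q = p ^ f`; compare `p`-adic valuations. -/
theorem arith_char {p a f k : ℕ} (hp : p.Prime) (ha : 1 ≤ a) (hf : 1 ≤ f) (hk : 2 ≤ k)
    (h : (p ^ a + 1) * (p ^ f - 1) = p ^ (f * k) - 1) : p ^ (f * k) = (p ^ a) ^ 2 := by
  have h1 : 1 ≤ p ^ f := Nat.one_le_pow _ _ hp.pos
  have h2 : 1 ≤ p ^ (f * k) := Nat.one_le_pow _ _ hp.pos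
  have e : p ^ a * p ^ f + p ^ f = p ^ (f * k) + p ^ a := by
    zify [h1, h2] at h ⊢
    linear_combination h
  have hfk : f + f ≤ f * k := by nlinarith
  rcases lt_trichotomy a f with hlt | rfl | hlt
  · exfalso
    have d1 : p ^ (a + 1) ∣ p ^ f := pow_dvd_pow _ hlt
    have d2 : p ^ (a + 1) ∣ p ^ (f * k) := pow_dvd_pow _ (by omega)
    have d3 : p ^ (a + 1) ∣ p ^ (f * k) + p ^ a := e ▸ dvd_add (d1.mul_left _) d1
    have d4 := (Nat.dvd_add_right d2).1 d3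
    have := (Nat.pow_dvd_pow_iff_le_right hp.one_lt).1 d4
    omega
  · rw [sq]; omega
  · exfalso
    have d1 : p ^ (f + 1) ∣ p ^ a := pow_dvd_pow _ hlt
    have d2 : p ^ (f + 1) ∣ p ^ (f * k) := pow_dvd_pow _ (by omega)
    have d3 : p ^ (f + 1) ∣ p ^ a * p ^ f + p ^ f := e ▸ dvd_add d2 d1
    have d4 := (Nat.dvd_add_right (d1.mul_right _)).1 d3
    have := (Nat.pow_dvd_pow_iff_le_right hp.one_lt).1 d4
    omega

theorem Arith.sq {p f k N : ℕ} (hp : p.Prime) (hf : 1 ≤ f) (hk : 2 ≤ k)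
    (h : N * (p ^ f - 1) = p ^ (f * k) - 1) : p ^ (f * k) < N ^ 2 := by
  obtain ⟨j, rfl⟩ : ∃ j, k = j + 2 := ⟨k - 2, by omega⟩
  rw [pow_mul] at h ⊢
  have hQ : 2 ≤ p ^ f := le_trans hp.two_le (Nat.le_self_pow (by omega) p)
  generalize p ^ f = Q at h hQ
  have h1 : 1 ≤ Q ^ j := Nat.one_le_pow _ _ (by omega)
  have h2 : 1 ≤ Q ^ (j + 2) := Nat.one_le_pow _ _ (by omega)
  have e : N * Q + 1 = Q ^ j * Q * Q + N := by
    have h3 : 1 ≤ Q := by omega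
    zify [h3, h2] at h ⊢
    linear_combination h
  have e2 : Q ^ (j + 2) = Q ^ j * Q * Q := by ring
  rw [e2]
  generalize Q ^ j = X at h1 e
  have hN : X * Q < N := by
    by_contra hc
    push Not at hc
    obtain ⟨R, rfl⟩ : ∃ R, Q = R + 1 := ⟨Q - 1, by omega⟩
    have : N * R ≤ X * (R + 1) * R := Nat.mul_le_mul_right _ hc
    nlinarith
  have h4 : Q ≤ X * Q := Nat.le_mul_of_pos_left _ h1
  nlinarith

/-- `N b = 560` divides `3 ^ n - 1`, so `12 ∣ n = f k`, and `N ≥ 3 ^ (n / 2) + 1 > 560`. -/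
theorem arith_a7 {f k s b N : ℕ} (hf : 1 ≤ f) (hk : 2 ≤ k) (h : N * (3 ^ f - 1) = 3 ^ (f * k) - 1)
    (hb : b ∣ 3 ^ f - 1) (hc : 5040 = 3 ^ s * (N * b)) : False := by
  have hs := Arith.sq Nat.prime_three hf hk h
  have hd : N * b ∣ 3 ^ (f * k) - 1 := h ▸ Nat.mul_dvd_mul_left N hb
  have hn : 2 ≤ f * k := by nlinarith
  generalize f * k = n at hs hd hn
  have h3 : ¬ 3 ∣ N * b := fun h3 => by
    have d := h3.trans hd
    have d2 : 3 ∣ 3 ^ n := dvd_pow_self 3 (by omega)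
    have h1 : 1 ≤ 3 ^ n := Nat.one_le_pow _ _ (by norm_num)
    omega
  have hs2 : s ≤ 2 := by
    by_contra hc'
    have d : 3 ^ 3 ∣ 3 ^ s := pow_dvd_pow _ (by omega)
    have := d.trans (Dvd.intro _ hc.symm)
    norm_num at this
  have e : N * b = 560 := by
    interval_cases s <;> omega
  have hN : N ≤ 560 := Nat.le_of_dvd (by norm_num) (Dvd.intro _ e)
  rw [e] at hd
  by_cases h12 : n < 12
  · interval_cases n <;> norm_num at hd
  · have : 3 ^ 12 ≤ 3 ^ n := Nat.pow_le_pow_right (by norm_num) (by omega)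
    have : N ^ 2 ≤ 560 ^ 2 := Nat.pow_le_pow_left hN 2
    omega

/-- `N = 1 + Q + ... ≥ Q ^ (k - 1) + 1` with `2 (k - 1) ≥ k`. -/
theorem arith_sq {p f k N : ℕ} (hp : p.Prime) (hf : 1 ≤ f) (hk : 2 ≤ k)
    (h : N * (p ^ f - 1) = p ^ (f * k) - 1) : p ^ (f * k) < N ^ 2 :=
  Arith.sq hp hf hk h

end CL.Go
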