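import Cfsg.Agent.BLK.Go.Defs

set_option autoImplicit false

namespace CL.Go

namespace ArX

theorem val_eq {p x y : ℤ} {a b : ℕ} (hp : p ≠ 0) (hx : ¬ p ∣ x) (hy : ¬ p ∣ y)
    (h : p ^ a * x = p ^ b * y) : a = b ∧ x = y := by
  have key : ∀ {x y : ℤ} {a b : ℕ}, ¬ p ∣ x → p ^ a * x = p ^ b * y → ¬ a < b := by
    intro x y a b hx h hab
    obtain ⟨c, rfl⟩ := Nat.exists_eq_add_of_lt hab
    apply hx
    have : p ^ a * x = p ^ a * (p * (p ^ c * y)) := by rw [h]; ring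
    exact ⟨_, mul_left_cancel₀ (pow_ne_zero a hp) this⟩
  have hab : a = b := le_antisymm (not_lt.1 (key hy h.symm)) (not_lt.1 (key hx h))
  subst hab
  exact ⟨rfl, mul_left_cancel₀ (pow_ne_zero a hp) h⟩

theorem big3 {R m d c M ε : ℤ} (hε : ε = 1 ∨ ε = -1) (hR : 0 < R) (m0 : 0 < m) (hme : Even m)
    (h1 : 2 * m * d = 27 * R - 1) (h2 : ε * m - 2 = c * (3 * R)) (h3 : 18 * M = m ^ 2 + c) : False := by
  obtain ⟨n, hn⟩ := hme
  have d0 : 0 < d := by
    by_contra hd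
    have : 2 * m * d ≤ 0 := mul_nonpos_of_nonneg_of_nonpos (by omega) (by omega)
    omega
  rcases hε with rfl | rfl
  · have hm : m = c * (3 * R) + 2 := by omega
    have c0 : 0 ≤ c := by
      by_contra hc
      have : c * (3 * R) ≤ -1 * (3 * R) := mul_le_mul_of_nonneg_right (by omega) (by omega)
      omega
    have e : 3 * R * (9 - 2 * (d * c)) = 4 * d + 1 := by
      rw [hm] at h1; linear_combination -h1
    have hdc : d * c ≤ 4 := by
      by_contra hc
      have : 3 * R * (9 - 2 * (d * c)) ≤ 0 := mul_nonpos_of_nonneg_of_nonpos (by omega) (by omega)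
      omega
    rcases c0.eq_or_lt with rfl | c1
    · have : m = 2 := by omega
      subst this
      omega
    · have hd4 : d ≤ 4 := by nlinarith
      have hc4 : c ≤ 4 := by nlinarith
      interval_cases d <;> interval_cases c <;> try omega
      have : m = 20 := by omega
      subst this
      omega
  · obtain ⟨c', rfl⟩ : ∃ c', c = -c' := ⟨-c, by ring⟩
    have hm : m = c' * (3 * R) - 2 := by linarith
    have c0 : 0 < c' := by
      by_contra hc
      have : c' * (3 * R) ≤ 0 := mul_nonpos_of_nonpos_of_nonneg (by omega) (by omega)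
      omega
    have e : 3 * R * (2 * (d * c') - 9) = 4 * d - 1 := by
      rw [hm] at h1; linear_combination h1
    have hdc : 0 < 2 * (d * c') - 9 := by
      by_contra hc
      have : 3 * R * (2 * (d * c') - 9) ≤ 0 := mul_nonpos_of_nonneg_of_nonpos (by omega) (by omega)
      omega
    have h5 : 3 * (2 * (d * c') - 9) ≤ 4 * d - 1 := by
      rw [← e]; exact mul_le_mul_of_nonneg_right (by omega) hdc.le
    have h6 : d ≤ d * c' := le_mul_of_one_le_right d0.le c0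
    have hd4 : d ≤ 13 := by omega
    have hc4 : c' ≤ 5 := by
      by_contra hc
      have : d * 6 ≤ d * c' := mul_le_mul_of_nonneg_left (by omega) d0.le
      omega
    interval_cases d <;> interval_cases c' <;> omega

theorem small3 {R m d u M ε : ℤ} (hε : ε = 1 ∨ ε = -1) (hR : 0 < R) (m0 : 0 < m) (hme : Even m)
    (hu : ¬ (3 : ℤ) ∣ u) (h1 : 2 * m * d = 9 * R - 1) (h2 : m + ε = R * u)
    (h3 : 2 * (1 + 9 * R * M) = m * u) :
    R = 1 ∧ ((ε = -1 ∧ m = 2 ∧ M = 0) ∨ (ε = 1 ∧ m = 4 ∧ M = 1)) := by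
  obtain ⟨n, hn⟩ := hme
  have d0 : 0 < d := by
    by_contra hd
    have : 2 * m * d ≤ 0 := mul_nonpos_of_nonneg_of_nonpos (by omega) (by omega)
    omega
  have u0 : 0 < u := by
    by_contra hd
    have : R * u ≤ 0 := mul_nonpos_of_nonneg_of_nonpos (by omega) (by omega)
    omega
  have uo : u % 2 = 1 := by
    by_contra h
    obtain ⟨v, hv⟩ : ∃ v, u = 2 * v := ⟨u / 2, by omega⟩
    have : R * u = 2 * (R * v) := by rw [hv]; ring
    omega
  rcases hε with rfl | rfl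
  · have hm : m = R * u - 1 := by omega
    have e : R * (2 * (d * u) - 9) = 2 * d - 1 := by
      rw [hm] at h1; linear_combination h1
    by_cases u1 : u = 1
    · subst u1
      have e3 : R * (1 - 18 * M) = 3 := by rw [hm] at h3; linear_combination -h3
      have hR3 : R ≤ 3 := Int.le_of_dvd (by norm_num) ⟨_, e3.symm⟩
      interval_cases R <;> omega
    · have u5 : 5 ≤ u := by omega
      have h6 : d * 5 ≤ d * u := mul_le_mul_of_nonneg_left u5 d0.le
      have h7 : 2 * (d * u) - 9 ≤ R * (2 * (d * u) - 9) := le_mul_of_one_le_left (by omega) hR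
      have hd : d = 1 := by omega
      subst hd
      have hu5 : u = 5 := by omega
      subst hu5
      have : R = 1 := by omega
      subst this
      omega
  · have hm : m = R * u + 1 := by omega
    have e : R * (9 - 2 * (d * u)) = 2 * d + 1 := by
      rw [hm] at h1; linear_combination -h1
    have hdu : d * u ≤ 4 := by
      by_contra hc
      have : R * (9 - 2 * (d * u)) ≤ 0 := mul_nonpos_of_nonneg_of_nonpos (by omega) (by omega)
      omega
    have h6 : u ≤ d * u := le_mul_of_one_le_left u0.le d0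
    have u4 : u ≤ 4 := by omega
    have u1 : u = 1 := by interval_cases u <;> omega
    subst u1
    have hd4 : d ≤ 4 := by omega
    interval_cases d
    · omega
    · have : R = 1 := by omega
      subst this
      omega
    · omega
    · have : R = 9 := by omega
      subst this
      omega

theorem core {p f t : ℕ} (hp : p.Prime) (hp2 : p ≠ 2) (hf : 1 ≤ f) (ht : 1 ≤ t) {m M ε : ℤ}
    (hε : ε = 1 ∨ ε = -1) (hm : ¬ (p : ℤ) ∣ m) (m0 : 0 < m) (hme : Even m)
    (hb : 2 * m ∣ (p : ℤ) ^ f - 1)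
    (h : 2 * (p : ℤ) ^ f * (1 + (p : ℤ) ^ f * M) = (p : ℤ) ^ t * m * ((p : ℤ) ^ t * m + 3 * ε)) :
    p = 3 ∧ t = 1 ∧ f = 2 ∧ ((ε = -1 ∧ m = 2 ∧ M = 0) ∨ (ε = 1 ∧ m = 4 ∧ M = 1)) := by
  have pp : Prime (p : ℤ) := Nat.prime_iff_prime_int.1 hp
  have p0 : (p : ℤ) ≠ 0 := pp.ne_zero
  have p2 : ¬ (p : ℤ) ∣ 2 := fun h2 =>
    hp2 ((Nat.prime_dvd_prime_iff_eq hp Nat.prime_two).1 (by exact_mod_cast h2))
  have pe : ¬ (p : ℤ) ∣ ε := fun h2 => by
    rcases hε with rfl | rfl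
    · exact pp.not_dvd_one h2
    · exact pp.not_dvd_one (dvd_neg.1 h2)
  have pQ : (p : ℤ) ∣ (p : ℤ) ^ f := dvd_pow_self _ (by omega)
  have pM : ¬ (p : ℤ) ∣ 2 * (1 + (p : ℤ) ^ f * M) := fun h2 => by
    rcases pp.dvd_or_dvd h2 with h3 | h3
    · exact p2 h3
    · exact pp.not_dvd_one ((dvd_add_left (pQ.mul_right M)).1 h3)
  obtain ⟨d, hd⟩ := hb
  by_cases p3 : p = 3
  · subst p3
    refine ⟨rfl, ?_⟩
    push_cast at *
    obtain ⟨t, rfl⟩ : ∃ t', t = t' + 1 := ⟨t - 1, by omega⟩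
    rcases Nat.eq_zero_or_pos t with rfl | t0
    · have hne : (m + ε).natAbs ≠ 0 := by
        obtain ⟨n, hn⟩ := hme
        omega
      obtain ⟨j, u', hu', hj⟩ := Nat.exists_eq_pow_mul_and_not_dvd hne 3 (by norm_num)
      have hj' : m + ε = (3 : ℤ) ^ j * (u' : ℤ) := by
        have : ((m + ε).natAbs : ℤ) = m + ε := Int.natAbs_of_nonneg (by omega)
        rw [← this, hj]; push_cast; ring
      have hu : ¬ (3 : ℤ) ∣ (u' : ℤ) := fun h2 => hu' (by exact_mod_cast h2)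
      have hmu : ¬ (3 : ℤ) ∣ m * u' := fun h2 => (pp.dvd_or_dvd h2).elim hm hu
      have h' : (3 : ℤ) ^ f * (2 * (1 + (3 : ℤ) ^ f * M)) = (3 : ℤ) ^ (j + 2) * (m * u') := by
        linear_combination h + 9 * m * hj'
      obtain ⟨e1, e2⟩ := val_eq (by norm_num) pM hmu h'
      subst e1
      have hR : (0 : ℤ) < 3 ^ j := by positivity
      obtain ⟨r1, r2⟩ := small3 (R := 3 ^ j) (d := d) (M := M) hε hR m0 hme hu
        (by linear_combination -hd) hj' (by linear_combination e2)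
      have hj0 : j = 0 := by
        by_contra hj0
        have : (3 : ℤ) ∣ 3 ^ j := dvd_pow_self _ hj0
        rw [r1] at this
        norm_num at this
      subst hj0
      exact ⟨rfl, rfl, r2⟩
    · exfalso
      obtain ⟨t, rfl⟩ : ∃ t', t = t' + 1 := ⟨t - 1, by omega⟩
      have h3 : ¬ (3 : ℤ) ∣ m * (3 ^ (t + 1) * m + ε) := fun h2 => by
        rcases pp.dvd_or_dvd h2 with h3 | h3
        · exact hm h3
        · exact pe ((dvd_add_right ((dvd_pow_self (3 : ℤ) (by omega)).mul_right m)).1 h3)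
      have h' : (3 : ℤ) ^ f * (2 * (1 + (3 : ℤ) ^ f * M)) =
          (3 : ℤ) ^ (t + 3) * (m * (3 ^ (t + 1) * m + ε)) := by
        linear_combination h
      obtain ⟨e1, e2⟩ := val_eq (by norm_num) pM h3 h'
      subst e1
      have hR : (0 : ℤ) < 3 ^ t := by positivity
      exact big3 (R := 3 ^ t) (d := d) (M := M) (c := 18 * M - m ^ 2) hε hR m0 hme
        (by linear_combination -hd) (by linear_combination -e2) (by ring)
  · exfalso
    have hp3 : ¬ (p : ℤ) ∣ 3 := fun h2 =>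
      p3 ((Nat.prime_dvd_prime_iff_eq hp Nat.prime_three).1 (by exact_mod_cast h2))
    have h3 : ¬ (p : ℤ) ∣ m * ((p : ℤ) ^ t * m + 3 * ε) := fun h2 => by
      rcases pp.dvd_or_dvd h2 with h3 | h3
      · exact hm h3
      · exact (pp.dvd_or_dvd ((dvd_add_right ((dvd_pow_self (p : ℤ) (by omega)).mul_right m)).1
          h3)).elim hp3 pe
    have h' : (p : ℤ) ^ f * (2 * (1 + (p : ℤ) ^ f * M)) =
        (p : ℤ) ^ t * (m * ((p : ℤ) ^ t * m + 3 * ε)) := by
      linear_combination h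
    obtain ⟨e1, e2⟩ := val_eq p0 pM h3 h'
    subst e1
    have hQo : Odd ((p : ℤ) ^ f) := by
      have : Odd p := hp.odd_of_ne_two hp2
      exact (this.natCast (R := ℤ)).pow
    have hQ1 : 1 < (p : ℤ) ^ f := one_lt_pow₀ (by exact_mod_cast hp.one_lt) (by omega)
    generalize (p : ℤ) ^ f = Q at *
    obtain ⟨n, hn⟩ := hme
    obtain ⟨q, hq⟩ := hQo
    have d0 : 0 < d := by
      by_contra hd0
      have : 2 * m * d ≤ 0 := mul_nonpos_of_nonneg_of_nonpos (by omega) (by omega)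
      omega
    have hmQ : 2 * m ≤ 2 * m * d := le_mul_of_one_le_right (by omega) d0
    obtain ⟨c, hc⟩ : ∃ c, Q * c = 3 * ε * m - 2 := ⟨2 * M - m ^ 2, by linear_combination e2⟩
    have c1 : c ≤ 1 := by
      by_contra h5
      have : Q * 2 ≤ Q * c := mul_le_mul_of_nonneg_left (by omega) (by omega)
      rcases hε with rfl | rfl <;> omega
    have c2 : -1 ≤ c := by
      by_contra h5
      have : Q * c ≤ Q * (-2) := mul_le_mul_of_nonneg_left (by omega) (by omega)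
      rcases hε with rfl | rfl <;> omega
    interval_cases c <;> rcases hε with rfl | rfl <;> omega

theorem core2 {p l f k s b N A : ℕ} {ε : ℤ} (hp : p.Prime) (hp2 : p ≠ 2) (hl : Odd l) (hl3 : 3 < l)
    (hf : 1 ≤ f) (hk : 2 ≤ k) (h : N * (p ^ f - 1) = p ^ (f * k) - 1) (hb : b ∣ p ^ f - 1)
    (hc : l * (l ^ 2 - 1) = p ^ s * (N * b)) (hε : ε = 1 ∨ ε = -1) (hA : (A : ℤ) = l - ε)
    (hpA : p ∣ A) (hN : (N : ℤ) * 2 = l * (l + ε)) :
    p = 3 ∧ ((l = 5 ∧ f * k = 4) ∨ (l = 13 ∧ f * k = 6)) := by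
  have pp : Prime (p : ℤ) := Nat.prime_iff_prime_int.1 hp
  have p0 : (p : ℤ) ≠ 0 := pp.ne_zero
  have p2 : ¬ (p : ℤ) ∣ 2 := fun h2 =>
    hp2 ((Nat.prime_dvd_prime_iff_eq hp Nat.prime_two).1 (by exact_mod_cast h2))
  have o1 : 1 ≤ p ^ f := Nat.one_le_pow _ _ hp.pos
  have o2 : 1 ≤ p ^ (f * k) := Nat.one_le_pow _ _ hp.pos
  have o3 : 1 ≤ l ^ 2 := Nat.one_le_pow _ _ (by omega)
  have hz : (N : ℤ) * ((p : ℤ) ^ f - 1) = (p : ℤ) ^ (f * k) - 1 := by
    zify [o1, o2] at h; exact h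
  have hbz : (b : ℤ) ∣ (p : ℤ) ^ f - 1 := by
    have := Int.natCast_dvd_natCast.2 hb
    push_cast [o1] at this; exact this
  have hcz : (l : ℤ) * ((l : ℤ) ^ 2 - 1) = (p : ℤ) ^ s * (N * b) := by
    zify [o3] at hc; exact hc
  have hA0 : A ≠ 0 := by rcases hε with rfl | rfl <;> omega
  obtain ⟨t, m, hm, hAm⟩ := Nat.exists_eq_pow_mul_and_not_dvd hA0 p hp.ne_one
  have ht : 1 ≤ t := by
    by_contra h0
    have : t = 0 := by omega
    subst this
    apply hm
    simpa [hAm] using hpA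
  have hmz : ¬ (p : ℤ) ∣ (m : ℤ) := fun h2 => hm (by exact_mod_cast h2)
  have hAz : (A : ℤ) = (p : ℤ) ^ t * m := by rw [hAm]; push_cast; ring
  have m0 : (0 : ℤ) < m := by
    rcases Nat.eq_zero_or_pos m with rfl | h0
    · simp at hm
    · exact_mod_cast h0
  have hme : Even (m : ℤ) := by
    have hAe : Even (A : ℤ) := by
      obtain ⟨c, hc⟩ := hl
      rcases hε with rfl | rfl
      · exact ⟨c, by omega⟩
      · exact ⟨c + 1, by omega⟩
    rw [hAz, Int.even_mul] at hAe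
    refine hAe.resolve_left ?_
    rw [Int.not_even_iff_odd]
    exact ((hp.odd_of_ne_two hp2).natCast (R := ℤ)).pow
  have e2 : ε ^ 2 = 1 := by rcases hε with rfl | rfl <;> norm_num
  have N0 : (N : ℤ) ≠ 0 := by
    intro h0
    rw [h0] at hN
    have : (0 : ℤ) < l * (l + ε) := mul_pos (by omega) (by rcases hε with rfl | rfl <;> omega)
    omega
  have hsb : (p : ℤ) ^ s * b = (p : ℤ) ^ t * (2 * m) := by
    apply mul_left_cancel₀ N0
    have hl' : (l : ℤ) - ε = (p : ℤ) ^ t * m := by rw [← hAz, hA]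
    linear_combination -hcz - ((p : ℤ) ^ t * m) * hN + (l * (l + ε)) * hl' + l * e2
  have pQ : (p : ℤ) ∣ (p : ℤ) ^ f := dvd_pow_self _ (by omega)
  have pb : ¬ (p : ℤ) ∣ b := fun h2 =>
    pp.not_dvd_one ((dvd_sub_right pQ).1 (h2.trans hbz))
  obtain ⟨-, hb2⟩ := val_eq p0 pb (fun h2 => (pp.dvd_or_dvd h2).elim p2 hmz) hsb
  rw [hb2] at hbz
  obtain ⟨k, rfl⟩ : ∃ k', k = k' + 2 := ⟨k - 2, by omega⟩
  have hcop : IsCoprime (((p : ℤ) ^ f) ^ 2) ((p : ℤ) ^ f - 1) :=
    IsCoprime.pow_left ⟨1, -1, by ring⟩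
  obtain ⟨M, hM⟩ : ((p : ℤ) ^ f) ^ 2 ∣ (N : ℤ) - 1 - (p : ℤ) ^ f := by
    refine hcop.dvd_of_dvd_mul_right ⟨((p : ℤ) ^ f) ^ k - 1, ?_⟩
    rw [pow_mul] at hz
    linear_combination hz
  have hl' : (l : ℤ) = (p : ℤ) ^ t * m + ε := by rw [← hAz, hA]; ring
  obtain ⟨r1, r2, r3, r4⟩ := core hp hp2 hf ht (M := M) hε hmz m0 hme hbz (by
    rw [hl'] at hN
    linear_combination hN - 2 * hM + 2 * e2)
  subst r1 r2 r3
  refine ⟨rfl, ?_⟩
  have inj : ∀ a : ℕ, (3 : ℤ) ^ (2 * (k + 2)) = 3 ^ a → 2 * (k + 2) = a := fun a ha =>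
    pow_right_injective₀ (by norm_num : (0 : ℤ) < 3) (by norm_num) ha
  push_cast at hz hM hl'
  rcases r4 with ⟨rfl, h1, rfl⟩ | ⟨rfl, h1, rfl⟩
  · left
    refine ⟨by omega, inj 4 ?_⟩
    have : (N : ℤ) = 10 := by omega
    rw [this] at hz
    omega
  · right
    refine ⟨by omega, inj 6 ?_⟩
    have : (N : ℤ) = 91 := by omega
    rw [this] at hz
    omega

end ArX

/-- `Q = p ^ f`, `N = 1 + Q + ... + Q ^ (k-1)`, `ε = ±1`, `A = l - ε = p ^ t m`, `p ∤ m`, `t ≥ 1`, `m`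
even, `b = 2 m ∣ Q - 1`, `2 Q M = A (A + 3 ε)` with `M = 1 + ... + Q ^ (k-2) ≡ 1 mod Q`. -/
theorem arith_cross {p l f k s b N : ℕ} (hp : p.Prime) (hp2 : p ≠ 2) (hl : Odd l) (hl3 : 3 < l)
    (hf : 1 ≤ f) (hk : 2 ≤ k) (h : N * (p ^ f - 1) = p ^ (f * k) - 1) (hb : b ∣ p ^ f - 1)
    (hc : l * (l ^ 2 - 1) = p ^ s * (N * b))
    (he : (p ∣ l - 1 ∧ N * 2 = l * (l + 1)) ∨ (p ∣ l + 1 ∧ N * 2 = l * (l - 1))) :
    p = 3 ∧ ((l = 5 ∧ f * k = 4) ∨ (l = 13 ∧ f * k = 6)) := by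
  rcases he with ⟨h1, h2⟩ | ⟨h1, h2⟩
  · exact ArX.core2 (ε := 1) hp hp2 hl hl3 hf hk h hb hc (Or.inl rfl) (by omega) h1
      (by exact_mod_cast h2)
  · refine ArX.core2 (ε := -1) hp hp2 hl hl3 hf hk h hb hc (Or.inr rfl) (by omega) h1 ?_
    have o : 1 ≤ l := by omega
    zify [o] at h2
    linear_combination h2

end CL.Go
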