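import Cfsg.Agent.BLK.Go.Defs

set_option autoImplicit false

namespace CL.Go

variable {p : ℕ} [Fact p.Prime] {H V : Type*} [Group H] [Finite H] [AddCommGroup V]
  [Module (ZMod p) V] [Finite V] [Nontrivial V] {ρ : Representation (ZMod p) H V}

/-- `p'`-elements act fixed-point-freely. -/
theorem Hyp.fpf (h : Hyp p ρ) {g : H} (hg : (orderOf g).Coprime p) {v : V} (hv : v ≠ 0)
    (e : ρ g v = v) : g = 1 := by
  obtain ⟨k, hk⟩ := h.st g v hv e
  exact orderOf_eq_one_iff.1 ((hg.pow_right k).eq_one_of_dvd (orderOf_dvd_of_pow_eq_one hk))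

omit [Finite H] [Finite V] [Nontrivial V] in
theorem bas_ne (ρ : Representation (ZMod p) H V) (g : H) {v : V} (hv : v ≠ 0) : ρ g v ≠ 0 := fun e =>
  hv (by rw [← ρ.inv_self_apply g v, e, map_zero])

/-- Orbit-stabiliser on the non-zero vectors. -/
theorem Hyp.card_eq (h : Hyp p ρ) :
    ∃ a : ℕ, Nat.card H = p ^ a * (Nat.card V - 1) := by
  let _ : MulAction H V := MulAction.compHom V (ρ : H →* Module.End (ZMod p) V)
  obtain ⟨v, hv⟩ := exists_ne (0 : V)
  obtain ⟨a, ha⟩ := IsPGroup.iff_card.1 (show IsPGroup p (MulAction.stabilizer H v) from fun g =>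
    (h.st g v hv g.2).imp fun _ e => Subtype.ext e)
  have ho : MulAction.orbit H v = {0}ᶜ := Set.ext fun w =>
    ⟨fun ⟨g, e⟩ => e ▸ bas_ne ρ g hv, fun hw => h.tr v w hv hw⟩
  refine ⟨a, ?_⟩
  rw [← (MulAction.stabilizer H v).card_mul_index, ha, MulAction.index_stabilizer, ho,
    ← Set.ncard_add_ncard_compl ({0} : Set V), Set.ncard_singleton, Nat.add_sub_cancel_left]

theorem Hyp.exists_card (_h : Hyp p ρ) : ∃ n : ℕ, 1 ≤ n ∧ Nat.card V = p ^ n :=
    have : Module.Finite (ZMod p) V := Module.Finite.of_finite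
  ⟨Module.finrank (ZMod p) V, Module.finrank_pos, by rw [Module.natCard_eq_pow_finrank (K := ZMod p), Nat.card_zmod]⟩

/-- `O_p(H) = 1`: the fixed space of a normal `p`-subgroup is non-zero and invariant, so all of `V`. -/
theorem Hyp.eq_bot (h : Hyp p ρ) (K : Subgroup H) [K.Normal] (hK : IsPGroup p K) : K = ⊥ := by
  let _ : MulAction H V := MulAction.compHom V (ρ : H →* Module.End (ZMod p) V)
  obtain ⟨n, hn, e⟩ := h.exists_card
  obtain ⟨b, hb, b0⟩ := hK.exists_fixed_point_of_prime_dvd_card_of_fixed_point V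
    (e ▸ dvd_pow_self p (by omega)) (a := 0) fun k => map_zero (ρ k)
  refine eq_bot_iff.2 fun k hk => Subgroup.mem_bot.2 (h.inj (LinearMap.ext fun w => ?_))
  by_cases hw : w = 0
  · rw [hw, map_zero, map_zero]
  obtain ⟨g, rfl⟩ := h.tr b w b0.symm hw
  have : ρ (g⁻¹ * k * g) b = b := hb ⟨_, Subgroup.Normal.conj_mem' ‹_› k hk g⟩
  conv_rhs => rw [map_one, ← this]
  simp

/-- For `p` odd every involution acts as `-1`; `|H|` is even since `p ^ n - 1` is. -/
theorem Hyp.uniqInv (h : Hyp p ρ) (hp : p ≠ 2) : UniqInv H := by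
  have h2 : ∀ t : H, orderOf t = 2 → ρ t = -1 := fun t ht => LinearMap.ext fun v => by
    have e : ρ t (ρ t v) = v := by
      rw [← Module.End.mul_apply, ← map_mul, ← sq, ← ht, pow_orderOf_eq_one, map_one, Module.End.one_apply]
    refine eq_neg_of_add_eq_zero_left (by_contra fun h0 => ?_)
    have := h.fpf (g := t) (ht ▸ (Nat.coprime_primes Nat.prime_two Fact.out).2 hp.symm) h0
      (by rw [map_add, e, add_comm]; rfl)
    rw [this, orderOf_one] at ht
    omega
  obtain ⟨a, ha⟩ := h.card_eq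
  obtain ⟨n, -, e⟩ := h.exists_card
  obtain ⟨z, hz⟩ := exists_prime_orderOf_dvd_card' (G := H) 2 (ha ▸ Dvd.dvd.mul_left
    (even_iff_two_dvd.1 (e ▸ Nat.Odd.sub_odd ((Fact.out : p.Prime).odd_of_ne_two hp).pow odd_one)) _)
  exact ⟨z, hz, fun t ht => h.inj ((h2 t ht).trans (h2 z hz).symm)⟩

/-- A `p'`-subgroup acts semiregularly on the non-zero vectors of an invariant subspace. -/
theorem Hyp.card_dvd (h : Hyp p ρ) (K : Subgroup H) (hK : (Nat.card K).Coprime p)
    (W : Submodule (ZMod p) V) (hW : ∀ k ∈ K, ∀ w ∈ W, ρ k w ∈ W) :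
    Nat.card K ∣ Nat.card W - 1 := by
  let _ : MulAction H V := MulAction.compHom V (ρ : H →* Module.End (ZMod p) V)
  let S : SubMulAction K V := ⟨(W : Set V) \ {0}, fun k _ hw => ⟨hW k k.2 _ hw.1, bas_ne ρ k hw.2⟩⟩
  have e := Nat.card_congr (MulAction.selfEquivOrbitsQuotientProd (G := K) (X := S) fun w =>
    eq_bot_iff.2 fun k hk => Subgroup.mem_bot.2 (Subtype.ext (h.fpf
      (hK.coprime_dvd_left (K.orderOf_dvd_natCard k.2)) w.2.2 (congrArg Subtype.val hk))))
  rw [Nat.card_prod] at e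
  have e2 : Nat.card S = Nat.card W - 1 := Set.ncard_diff_singleton_of_mem W.zero_mem
  exact e2 ▸ e ▸ dvd_mul_left _ _

end CL.Go
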