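import Cfsg.Agent.BLK.Go.Defs
import Cfsg.Agent.CLAS.AutInd
import Cfsg.Agent.SIG.Quasisimple

set_option autoImplicit false
set_option maxHeartbeats 400000

namespace CL.Go
open Subgroup

namespace CentX

theorem inv_eq {G : Type*} [Group G] {z : G} (hu : ∀ t : G, orderOf t = 2 → t = z) {t : G} (h : t ^ 2 = 1) :
    t = 1 ∨ t = z := by
  by_cases e : t = 1
  · exact .inl e
  · exact .inr (hu t (orderOf_eq_prime h e))

theorem mem_z {G : Type*} [Group G] {z : G} (hz : orderOf z = 2) (hu : ∀ t : G, orderOf t = 2 → t = z) {t : G}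
    (h : t ∈ zpowers z) : t = 1 ∨ t = z := by
  obtain ⟨k, rfl⟩ := h
  refine inv_eq hu ?_
  rw [← hz, ← zpow_natCast, ← zpow_mul, mul_comm, zpow_mul, zpow_natCast, pow_orderOf_eq_one, one_zpow]

theorem cen {G : Type*} [Group G] {z : G} (hz : orderOf z = 2) (hu : ∀ t : G, orderOf t = 2 → t = z) :
    z ∈ center G := mem_center_iff.2 fun g => by
  have := hu (g * z * g⁻¹) (by rw [← hz]; exact (MulAut.conj g).orderOf_eq z)
  rw [mul_inv_eq_iff_eq_mul] at this
  exact this

theorem sq_or {G : Type*} [Group G] [Finite G] {z : G} (hz : orderOf z = 2) (hu : ∀ t : G, orderOf t = 2 → t = z) :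
    (∃ a : G, a ^ 2 = z) ∨ Odd (zpowers z).index := by
  rcases Nat.even_or_odd (zpowers z).index with h | h
  · left
    have : (zpowers z).Normal := ⟨fun n hn g => by
      rw [mem_center_iff.1 ((zpowers_le.2 (cen hz hu)) hn) g, mul_inv_cancel_right]; exact hn⟩
    obtain ⟨x, hx⟩ := exists_prime_orderOf_dvd_card' (G := G ⧸ zpowers z) 2 h.two_dvd
    obtain ⟨a, rfl⟩ := QuotientGroup.mk_surjective x
    have h1 : a ∉ zpowers z := fun e => by
      rw [(QuotientGroup.eq_one_iff a).2 e, orderOf_one] at hx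
      omega
    have h2 : a ^ 2 ∈ zpowers z := by
      rw [← QuotientGroup.eq_one_iff, QuotientGroup.mk_pow, ← hx, pow_orderOf_eq_one]
    rcases mem_z hz hu h2 with e | e
    · rcases inv_eq hu e with rfl | rfl
      · exact (h1 (one_mem _)).elim
      · exact (h1 (mem_zpowers _)).elim
    · exact ⟨a, e⟩
  · exact .inr h

theorem odd_pow {G : Type*} [Group G] {z : G} (hz : orderOf z = 2) {n : ℕ} (hn : Odd n) : z ^ n = z := by
  obtain ⟨k, rfl⟩ := hn
  rw [pow_succ, pow_mul, ← hz, pow_orderOf_eq_one, one_pow, one_mul]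

/-- a retraction onto `⟨z⟩` given by an odd power -/
theorem ex_pow {G : Type*} [Group G] [Finite G] {z : G} (hz : orderOf z = 2) (hu : ∀ t : G, orderOf t = 2 → t = z)
    (h : Odd (zpowers z).index) : ∃ (φ : G →* G) (n : ℕ), Odd n ∧ (∀ g, φ g = g ^ n) ∧ φ.range = zpowers z := by
  have hc : zpowers z ≤ center G := zpowers_le.2 (cen hz hu)
  have : (zpowers z).Normal := ⟨fun n hn g => by
    rw [mem_center_iff.1 (hc hn) g, mul_inv_cancel_right]; exact hn⟩
  have h1 : Odd (center G).index := h.of_dvd_nat (index_dvd_of_le hc)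
  have hm : ∀ a b : G, (a * b) ^ (center G).index = a ^ (center G).index * b ^ (center G).index := fun a b =>
    congrArg Subtype.val ((MonoidHom.transferCenterPow G).map_mul a b)
  refine ⟨MonoidHom.mk' (fun g => g ^ ((center G).index * (zpowers z).index)) fun a b => ?_,
    (center G).index * (zpowers z).index, h1.mul h, fun g => rfl, le_antisymm ?_ ?_⟩
  · rw [pow_mul, pow_mul, pow_mul, hm]
    exact Commute.mul_pow (mem_center_iff.1 ((center G).pow_index_mem b) _) _
  · rintro _ ⟨g, rfl⟩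
    change g ^ (_ * _) ∈ _
    rw [pow_mul]
    exact (zpowers z).pow_index_mem _
  · exact zpowers_le.2 ⟨z, odd_pow hz (h1.mul h)⟩

theorem triv {G : Type*} [Group G] (hG : commutator G = ⊤) (φ : G →* G) (h : φ.range ≤ center G) (g : G) :
    φ g = 1 := by
  have : commutator G ≤ φ.ker := commutator_le.2 fun a _ b _ => by
    rw [MonoidHom.mem_ker, map_commutatorElement, commutatorElement_eq_one_iff_mul_comm]
    exact mem_center_iff.1 (h ⟨b, rfl⟩) _
  exact this (hG ▸ mem_top g)

end CentX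

/-- `C = C_H(L)` has Sylow 2-subgroup `⟨z⟩` (an element `c ∈ C` of order 4 and `a ∈ L` of order 4
give the involution `c a ≠ z`; `L` has elements of order 4 being perfect with one involution), so
`C = ⟨z⟩ × O`, `O = O(C)` of odd order, `L ⊓ C = Z(L)`, and `H / C` embeds in `Aut (L / Z(L))`
(`C_H(L / Z(L)) = C_H(L)` as `L` is perfect). `e = |H : L C|`. -/
theorem exists_cent {H : Type*} [Group H] [Finite H] (hu : UniqInv H) (L : Subgroup H) [L.Normal]
    (hq : Cfsg.IsQuasisimple L) (hZ : Nat.card (Subgroup.center L) = 2) :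
    ∃ (O : Subgroup H) (e : ℕ), O.Normal ∧ Odd (Nat.card O) ∧
      O ≤ Subgroup.centralizer (L : Set H) ∧
      (O = ⊥ → Subgroup.centralizer (L : Set H) = (Subgroup.center L).map L.subtype) ∧
      Nat.card H = Nat.card L * Nat.card O * e ∧
      Nat.card (L ⧸ Subgroup.center L) * e ∣ Nat.card (MulAut (L ⧸ Subgroup.center L)) := by
  obtain ⟨z, hz, hu⟩ := hu
  have z1 : z ≠ 1 := fun e => by rw [e, orderOf_one] at hz; omega
  have zc := CentX.cen hz hu
  obtain ⟨⟨⟨z', zL⟩, zZ⟩, hz'⟩ := exists_prime_orderOf_dvd_card' (G := center L) 2 hZ.symm.dvd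
  rw [← orderOf_coe, ← orderOf_coe] at hz'
  obtain rfl : z = z' := (hu z' hz').symm
  have hzL : orderOf (⟨z, zL⟩ : L) = 2 := by rw [← orderOf_coe]; exact hz
  have huL : ∀ t : L, orderOf t = 2 → t = ⟨z, zL⟩ := fun t ht => Subtype.ext (hu t (by rw [orderOf_coe]; exact ht))
  have ZL : zpowers (⟨z, zL⟩ : L) = center L :=
    eq_of_le_of_card_ge (zpowers_le.2 zZ) (by rw [hZ, Nat.card_zpowers, hzL])
  have ZH : (center L).map L.subtype = zpowers z := by rw [← ZL, MonoidHom.map_zpowers]; rfl
  obtain ⟨a, ha⟩ : ∃ a : L, a ^ 2 = ⟨z, zL⟩ := (CentX.sq_or hzL huL).resolve_right fun h => by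
    obtain ⟨φ, n, hn, hφ, hr⟩ := CentX.ex_pow hzL huL h
    have h2 := CentX.triv (Group.isPerfect_def.1 hq.1) φ (hr.trans ZL).le ⟨z, zL⟩
    rw [hφ, CentX.odd_pow hzL hn] at h2
    exact z1 (congrArg Subtype.val h2)
  set C := centralizer (L : Set H) with hC
  have zC : z ∈ C := center_le_centralizer _ zc
  have LC : C.subgroupOf L = center L := by
    ext x
    rw [mem_subgroupOf, mem_center_iff, mem_centralizer_iff]
    exact ⟨fun h g => Subtype.ext (h g g.2), fun h g hg => congrArg Subtype.val (h ⟨g, hg⟩)⟩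
  have aC : (a : H) ∉ C := fun h => by
    have : a ∈ zpowers (⟨z, zL⟩ : L) := by rw [ZL, ← LC]; exact h
    rcases CentX.mem_z hzL huL this with e | e
    · rw [e, one_pow] at ha; exact z1 (congrArg Subtype.val ha).symm
    · rw [e, ← hzL, pow_orderOf_eq_one] at ha; exact z1 (congrArg Subtype.val ha).symm
  have hzC : orderOf (⟨z, zC⟩ : C) = 2 := by rw [← orderOf_coe]; exact hz
  have huC : ∀ t : C, orderOf t = 2 → t = ⟨z, zC⟩ := fun t ht => Subtype.ext (hu t (by rw [orderOf_coe]; exact ht))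
  obtain ⟨φ, n, hn, hφ, hr⟩ := CentX.ex_pow hzC huC ((CentX.sq_or hzC huC).resolve_left fun ⟨c, hc⟩ => by
    have cm : Commute (a : H) c := c.2 a a.2
    have h1 : ((a : H) * c) ^ 2 = 1 := by
      rw [cm.mul_pow, show (a : H) ^ 2 = z from congrArg Subtype.val ha, show (c : H) ^ 2 = z from congrArg Subtype.val hc,
        ← sq, ← hz, pow_orderOf_eq_one]
    have h2 : (a : H) * c ∈ C := by
      rcases CentX.inv_eq hu h1 with e | e <;> rw [e]
      exacts [one_mem _, zC]
    exact aC ((mul_mem_cancel_right c.2).1 h2))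
  have mO : ∀ x : H, x ∈ φ.ker.map C.subtype ↔ x ∈ C ∧ x ^ n = 1 := fun x =>
    ⟨fun ⟨y, hy, e⟩ => e ▸ ⟨y.2, congrArg Subtype.val ((hφ y).symm.trans hy)⟩,
      fun ⟨h1, h2⟩ => ⟨⟨x, h1⟩, (hφ _).trans (Subtype.ext h2), rfl⟩⟩
  have cO : Nat.card C = 2 * Nat.card (φ.ker.map C.subtype) := by
    rw [card_map_of_injective C.subtype_injective, ← φ.ker.index_mul_card, index_ker, hr, Nat.card_zpowers, hzC]
  have iC : C.index = Nat.card (L ⧸ center L) * (L ⊔ C).index := by
    rw [← relIndex_mul_index (le_sup_right : C ≤ L ⊔ C), relIndex_sup_right, relIndex, LC]; rfl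
  refine ⟨φ.ker.map C.subtype, (L ⊔ C).index, ⟨fun x hx g => ?_⟩, ?_, map_subtype_le _, fun h => ?_, ?_, ?_⟩
  · rw [mO] at hx ⊢
    exact ⟨Normal.conj_mem inferInstance x hx.1 g, by rw [conj_pow, hx.2, mul_one, mul_inv_cancel]⟩
  · by_contra h
    obtain ⟨x, hx⟩ := exists_prime_orderOf_dvd_card' (G := φ.ker.map C.subtype) 2 (Nat.not_odd_iff_even.1 h).two_dvd
    have := ((mO x).1 x.2).2
    rw [hu x (by rw [orderOf_coe]; exact hx), CentX.odd_pow hz hn] at this
    exact z1 this
  · rw [ZH]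
    refine (eq_of_le_of_card_ge (zpowers_le.2 zC) ?_).symm
    rw [cO, h, Nat.card_zpowers, hz, card_bot]
  · rw [← C.index_mul_card, iC, cO, card_eq_card_quotient_mul_card_subgroup (center L), hZ]; ring
  · have hk : ((AutInd.quotCenter (H := L)).comp (MulAut.conjNormal (H := L))).ker = C := by
      ext g
      rw [MonoidHom.mem_ker, mem_centralizer_iff]
      constructor
      · intro h x hx
        have := Comp.eq_of_perfect_of_mul_inv_mem_center (Group.isPerfect_def.1 hq.1) (MulAut.conjNormal (H := L) g).toMonoidHom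
          (fun y => by
            have e : AutInd.quotCenter (MulAut.conjNormal (H := L) g) (QuotientGroup.mk y) = QuotientGroup.mk y := by
              rw [show AutInd.quotCenter (MulAut.conjNormal (H := L) g) = 1 from h]; rfl
            rw [AutInd.quotCenter_mk, ← mul_inv_eq_one, ← QuotientGroup.mk_inv, ← QuotientGroup.mk_mul,
              QuotientGroup.eq_one_iff] at e
            exact e) ⟨x, hx⟩
        have e : g * x * g⁻¹ = x := congrArg Subtype.val this
        exact (mul_inv_eq_iff_eq_mul.1 e).symm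
      · intro h
        have : MulAut.conjNormal (H := L) g = 1 := by
          ext y
          change g * y * g⁻¹ = y
          rw [← h y y.2, mul_inv_cancel_right]
        rw [MonoidHom.comp_apply, this, map_one]
    rw [← iC, ← hk, index_ker]
    exact card_subgroup_dvd_card _

end CL.Go
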