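import Cfsg.Agent.BLK.Go.Defs

set_option autoImplicit false

namespace CL.Go

variable {p : ℕ} [Fact p.Prime] {H V : Type*} [Group H] [Finite H] [AddCommGroup V]
  [Module (ZMod p) V] [Finite V] [Nontrivial V] {ρ : Representation (ZMod p) H V}

namespace Cnt

theorem dvd_card {G X : Type*} [Group G] [Finite X] [MulAction G X] {b : ℕ}
    (h : ∀ x : X, (MulAction.stabilizer G x).index = b) : b ∣ Nat.card X := by
  classical
  haveI := Fintype.ofFinite (MulAction.orbitRel.Quotient G X)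
  rw [Nat.card_congr (MulAction.selfEquivSigmaOrbits G X), Nat.card_sigma]
  refine Finset.dvd_sum fun ω _ => ?_
  rw [← h ω.out, MulAction.index_stabilizer, Nat.card_coe_set_eq]

/-- the fixed space -/
def U (ρ : Representation (ZMod p) H V) {L : Subgroup H} (S : Subgroup L) : Submodule (ZMod p) V where
  carrier := {v | ∀ s ∈ S, ρ s.1 v = v}
  zero_mem' := fun _ _ => map_zero _
  add_mem' := fun ha hb s hs => by rw [map_add, ha s hs, hb s hs]
  smul_mem' := fun c _ ha s hs => by rw [map_smul, ha s hs]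

theorem mul_ap (a b : H) (v : V) : ρ (a * b) v = ρ a (ρ b v) := by rw [map_mul]; rfl

theorem ne0 (a : H) {v : V} (hv : v ≠ 0) : ρ a v ≠ 0 := fun e => hv (by
  have := mul_ap (ρ := ρ) a⁻¹ a v
  rwa [e, map_zero, inv_mul_cancel, map_one] at this)

theorem mem_of (h : Hyp p ρ) {L : Subgroup H} (S : Sylow p L) {v : V} (hv : v ≠ 0) (hS : v ∈ U ρ S.1) {l : L}
    (hl : ρ l.1 v = v) : l ∈ S.1 := by
  let T : Subgroup L :=
    { carrier := {l | ρ l.1 v = v}
      one_mem' := by simp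
      mul_mem' := fun {a b} ha hb => by
        change ρ (a.1 * b.1) v = v
        rw [mul_ap, hb, ha]
      inv_mem' := fun {a} ha => by
        change ρ a.1⁻¹ v = v
        have := mul_ap (ρ := ρ) a.1⁻¹ a.1 v
        rw [ha, inv_mul_cancel, map_one] at this
        exact this.symm }
  have hT : IsPGroup p T := fun t => by
    obtain ⟨k, hk⟩ := h.st t.1.1 v hv t.2
    exact ⟨k, Subtype.ext (Subtype.ext hk)⟩
  rw [← S.is_maximal' hT fun s hs => hS s hs]
  exact hl

theorem mem_smul {L : Subgroup H} [L.Normal] (S : Sylow p L) (g : H) {v : V} (hv : v ∈ U ρ S.1) :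
    ρ g v ∈ U ρ ((MulAut.conjNormal g : MulAut L) • S : Sylow p L).1 := by
  rintro _ ⟨s, hs, rfl⟩
  change ρ (g * s.1 * g⁻¹) (ρ g v) = ρ g v
  rw [← mul_ap, inv_mul_cancel_right, mul_ap, hv s hs]

theorem card_nz (W : Submodule (ZMod p) V) : Nat.card {v : V // v ∈ W ∧ v ≠ 0} = Nat.card W - 1 := by
  have : {v : V | v ∈ W ∧ v ≠ 0} = (W : Set V) \ {0} := rfl
  change Nat.card ({v : V | v ∈ W ∧ v ≠ 0} : Set V) = Nat.card (W : Set V) - 1
  rw [this, Nat.card_coe_set_eq, Nat.card_coe_set_eq, Set.ncard_diff_singleton_of_mem W.zero_mem]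

theorem exists_fix {L : Subgroup H} (S : Sylow p L) : ∃ v, v ≠ 0 ∧ v ∈ U ρ S.1 := by
  letI : MulAction S.1 V := MulAction.compHom V (ρ.comp (L.subtype.comp S.1.subtype))
  have hd : p ∣ Nat.card V := by
    rw [Module.natCard_eq_pow_finrank (K := ZMod p), Nat.card_zmod]
    exact dvd_pow_self p Module.finrank_pos.ne'
  obtain ⟨v, hv, v0⟩ := S.isPGroup'.exists_fixed_point_of_prime_dvd_card_of_fixed_point V hd
    (a := 0) fun s => map_zero (ρ s.1.1)
  exact ⟨v, fun e => v0 e.symm, fun s hs => hv ⟨s, hs⟩⟩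

theorem card_le {L : Subgroup H} (S T : Sylow p L) : Nat.card (U ρ S.1) ≤ Nat.card (U ρ T.1) := by
  obtain ⟨l, rfl⟩ := MulAction.exists_smul_eq L S T
  refine Nat.card_le_card_of_injective (fun v => ⟨ρ l.1 v.1, ?_⟩) fun a b e => ?_
  · rintro _ ⟨s, hs, rfl⟩
    change ρ (l.1 * s.1 * l.1⁻¹) (ρ l.1 v) = ρ l.1 v
    rw [← mul_ap, inv_mul_cancel_right, mul_ap, v.2 s hs]
  · refine Subtype.ext (by_contra fun n => ne0 (ρ := ρ) l.1 (sub_ne_zero.2 n) ?_)
    rw [map_sub]
    exact sub_eq_zero.2 (congrArg Subtype.val e)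

end Cnt

open Cnt in
/-- Lemma K. `H_v` is Sylow `p` in `H` (index `|V| - 1`), so `L_v` is Sylow in `L`; each `v ≠ 0` is
fixed by exactly one Sylow `p`-subgroup of `L`; with `U = C_V(S)`, `|U| = p ^ f` (same for all `S`,
`f ≥ 1`): `n_p(L) (p ^ f - 1) = p ^ n - 1`, so `f ∣ n`, and `U ≠ V` as `S ≠ 1` is faithful;
`N_L(S) / S` (order `b`) is semiregular on `U - 0`. -/
theorem Hyp.count (h : Hyp p ρ) (L : Subgroup H) [L.Normal] (hL : p ∣ Nat.card L) :
    ∃ f k s b : ℕ, 1 ≤ f ∧ 2 ≤ k ∧ Nat.card V = p ^ (f * k) ∧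
      Nat.card (Sylow p L) * (p ^ f - 1) = p ^ (f * k) - 1 ∧ b ∣ p ^ f - 1 ∧
      Nat.card L = p ^ s * (Nat.card (Sylow p L) * b) := by
  classical
  obtain ⟨S⟩ : Nonempty (Sylow p L) := inferInstance
  have p1 : 1 < p := (Fact.out : p.Prime).one_lt
  obtain ⟨w, w0, hw⟩ := exists_fix (ρ := ρ) S
  have cV : Nat.card V = p ^ Module.finrank (ZMod p) V := by
    rw [Module.natCard_eq_pow_finrank (K := ZMod p), Nat.card_zmod]
  have cU : Nat.card (U ρ S.1) = p ^ Module.finrank (ZMod p) (U ρ S.1) := by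
    rw [Module.natCard_eq_pow_finrank (K := ZMod p), Nat.card_zmod]
  haveI : Nontrivial (U ρ S.1) := ⟨⟨⟨w, hw⟩, 0, fun e => w0 (congrArg Subtype.val e)⟩⟩
  have f1 : 0 < Module.finrank (ZMod p) (U ρ S.1) := Module.finrank_pos
  have lt : Module.finrank (ZMod p) (U ρ S.1) < Module.finrank (ZMod p) V := Submodule.finrank_lt fun e => by
    refine S.ne_bot_of_dvd_card hL (eq_bot_iff.2 fun s hs => Subgroup.mem_bot.2 (Subtype.ext (h.inj ?_)))
    refine LinearMap.ext fun v => ?_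
    have : v ∈ U ρ S.1 := e ▸ Submodule.mem_top
    rw [this s hs]
    simp
  generalize Module.finrank (ZMod p) (U ρ S.1) = f at cU f1 lt
  generalize Module.finrank (ZMod p) V = n at cV lt
  have cnt : Nat.card (Sylow p L) * (p ^ f - 1) = p ^ n - 1 := by
    haveI := Fintype.ofFinite (Sylow p L)
    let φ : (Σ T : Sylow p L, {v : V // v ∈ U ρ T.1 ∧ v ≠ 0}) →
        {v : V // v ∈ (⊤ : Submodule (ZMod p) V) ∧ v ≠ 0} := fun x => ⟨x.2.1, trivial, x.2.2.2⟩
    have hφ : Function.Bijective φ := by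
      refine ⟨?_, fun v => ?_⟩
      · rintro ⟨T, v, hv, v0⟩ ⟨T', v', hv', v0'⟩ e
        obtain rfl : v = v' := congrArg Subtype.val e
        obtain rfl : T = T' := Sylow.ext (le_antisymm (fun s hs => mem_of h T' v0 hv' (hv s hs))
          fun s hs => mem_of h T v0 hv (hv' s hs))
        rfl
      · obtain ⟨g, hg⟩ := h.tr w v.1 w0 v.2.2
        exact ⟨⟨(MulAut.conjNormal g : MulAut L) • S, v.1, hg ▸ mem_smul S g hw, v.2.2⟩, rfl⟩
    have := Nat.card_eq_of_bijective φ hφ
    rw [Nat.card_sigma, card_nz, Nat.card_congr (Submodule.topEquiv).toEquiv, cV,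
      Finset.sum_congr rfl fun T _ => (card_nz (U ρ T.1)).trans
        (by rw [le_antisymm (card_le T S) (card_le S T), cU]), Finset.sum_const, smul_eq_mul,
      Finset.card_univ, ← Nat.card_eq_fintype_card] at this
    exact this
  have dv : f ∣ n := by
    have e := Nat.gcd_eq_left (Dvd.intro_left _ cnt)
    rw [Nat.pow_sub_one_gcd_pow_sub_one] at e
    have e' : p ^ f.gcd n = p ^ f := by
      have := Nat.one_le_pow (f.gcd n) p (by omega)
      have := Nat.one_le_pow f p (by omega)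
      omega
    exact Nat.pow_right_injective p1 e' ▸ Nat.gcd_dvd_right f n
  obtain ⟨k, rfl⟩ := dv
  let N := Subgroup.normalizer (S.1 : Set L)
  letI : MulAction N {v : V // v ∈ U ρ S.1 ∧ v ≠ 0} :=
    { smul := fun a v => ⟨ρ a.1.1 v.1, fun s hs => by
        have := v.2.1 (a.1⁻¹ * s * a.1) (by
          have := (Subgroup.mem_normalizer_iff.1 (inv_mem a.2) s).1 hs
          rwa [inv_inv] at this)
        change ρ (a.1.1⁻¹ * s.1 * a.1.1) v.1 = v.1 at this
        nth_rewrite 2 [← this]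
        rw [← mul_ap, ← mul_ap, ← mul_assoc, mul_inv_cancel_left], ne0 _ v.2.2⟩
      one_smul := fun v => Subtype.ext (by
        change ρ 1 v.1 = v.1
        simp)
      mul_smul := fun a b v => Subtype.ext (mul_ap _ _ _) }
  have hb : S.1.relIndex N ∣ Nat.card {v : V // v ∈ U ρ S.1 ∧ v ≠ 0} := dvd_card (G := N) fun v => by
    have : MulAction.stabilizer N v = S.1.subgroupOf N := Subgroup.ext fun a =>
      ⟨fun ha => mem_of h S v.2.2 v.2.1 (congrArg Subtype.val ha), fun ha => Subtype.ext (v.2.1 a.1 ha)⟩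
    rw [this]
    rfl
  rw [card_nz, cU] at hb
  obtain ⟨s, hs⟩ := S.isPGroup'.exists_card_eq
  refine ⟨f, k, s, _, f1, by nlinarith, cV, cnt, hb, ?_⟩
  have e : S.1.relIndex N * N.index = S.1.index := Subgroup.relIndex_mul_index Subgroup.le_normalizer
  have e' : Nat.card (Sylow p L) = N.index := S.card_eq_index_normalizer
  rw [e', ← hs, mul_comm N.index, e, Subgroup.card_mul_index]

end CL.Go
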