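import Cfsg.Agent.BLK.Go.Defs
import Cfsg.Agent.S0016

set_option autoImplicit false

namespace CL.Go

variable {p : ℕ} [Fact p.Prime] {H V : Type*} [Group H] [Finite H] [AddCommGroup V]
  [Module (ZMod p) V] [Finite V] [Nontrivial V] {ρ : Representation (ZMod p) H V}

open Finset Subgroup in
/-- two commuting elements of order `r` generate the same subgroup -/
theorem Cyc.mem (h : Hyp p ρ) {r : ℕ} (hr : r.Prime) (hrp : r ≠ p) {a z : H} (ha : a ^ r = 1) (hz : orderOf z = r)
    (c : Commute z a) : a ∈ zpowers z := by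
  by_contra hn
  have cp : r.Coprime p := (Nat.coprime_primes hr Fact.out).2 hrp
  obtain ⟨v, hv⟩ := exists_ne (0 : V)
  have N : ∀ g : H, g ≠ 1 → g ^ r = 1 → ∀ w, ∑ i ∈ range r, ρ (g ^ i) w = 0 := fun g g1 hg w => by
    by_contra n
    obtain ⟨k, hk⟩ := h.st g _ n (by
      have := sum_range_succ (fun i => ρ (g ^ i) w) r
      rw [sum_range_succ', hg, pow_zero, add_left_inj] at this
      rw [map_sum, ← this]
      exact sum_congr rfl fun i _ => by rw [pow_succ', map_mul]; rfl)
    exact g1 (orderOf_eq_one_iff.1 (Nat.eq_one_of_dvd_coprimes (cp.pow_right k) (orderOf_dvd_of_pow_eq_one hg)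
      (orderOf_dvd_of_pow_eq_one hk)))
  have zr : ∀ i, (z ^ i) ^ r = 1 := fun i => by rw [← pow_mul, mul_comm, pow_mul, ← hz, pow_orderOf_eq_one, one_pow]
  have h1 : ∑ j ∈ range r, ∑ i ∈ range r, ρ ((z ^ j * a) ^ i) v = 0 := sum_eq_zero fun j _ =>
    N (z ^ j * a) (fun e => hn ((Subgroup.mul_mem_cancel_left _ (pow_mem (mem_zpowers z) j)).1 (by rw [e]; exact one_mem _)))
      (by rw [(c.pow_left j).mul_pow, zr, ha, one_mul]) v
  rw [sum_comm, sum_eq_single_of_mem 0 (mem_range.2 hr.pos) fun i hi i0 => ?_] at h1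
  · simp only [pow_zero, map_one, Module.End.one_apply, sum_const, card_range] at h1
    rw [← Nat.cast_smul_eq_nsmul (ZMod p), smul_eq_zero_iff_left hv, ZMod.natCast_eq_zero_iff] at h1
    exact hrp ((Nat.prime_dvd_prime_iff_eq Fact.out hr).1 h1).symm
  · rw [← N (z ^ i) (pow_ne_one_of_lt_orderOf i0 (hz ▸ mem_range.1 hi)) (zr i) (ρ (a ^ i) v)]
    exact sum_congr rfl fun j _ => by rw [(c.pow_left j).mul_pow, map_mul, pow_right_comm]; rfl

open Subgroup in
/-- For an odd prime `r ≠ p` the `r`-subgroups are cyclic (no `Z_r × Z_r` acts fixed-point-freely;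
S0016, or S0040 for the semidirect product). -/
theorem Hyp.isCyclic (h : Hyp p ρ) {r : ℕ} (hr : r.Prime) (hr2 : r ≠ 2) (hrp : r ≠ p)
    (K : Subgroup H) (hK : IsPGroup r K) : IsCyclic K := by
  have : Fact r.Prime := ⟨hr⟩
  rcases subsingleton_or_nontrivial K with _ | _
  · infer_instance
  have := hK.center_nontrivial
  obtain ⟨n, n0, hn⟩ := ((hK.to_subgroup (center K)).nontrivial_iff_card).1 inferInstance
  obtain ⟨z, hz⟩ := exists_prime_orderOf_dvd_card' (G := center K) r (hn ▸ dvd_pow_self r n0.ne')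
  have hz' : orderOf (z : K) = r := by rwa [orderOf_coe]
  have key : ∀ A : Subgroup K, Nat.card A = r → A = zpowers (z : K) := fun A hA =>
    eq_of_le_of_card_ge (fun a ha => by
      obtain ⟨k, hk⟩ := Cyc.mem h hr hrp (a := (a : H)) (z := ((z : K) : H))
        (by simpa [hA] using congrArg (fun x : A => ((x : K) : H)) (pow_card_eq_one' (x := ⟨a, ha⟩)))
        (by rwa [orderOf_coe]) (congrArg Subtype.val (mem_center_iff.1 z.2 a)).symm
      exact ⟨k, Subtype.ext hk⟩) (by rw [Nat.card_zpowers, hz', hA])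
  exact (Cfsg.Agent.S0016.result r hK fun A B a b => (key A a).trans (key B b).symm).resolve_right fun e => hr2 e.1

end CL.Go
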