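import Cfsg.Prelude.Def_Blocks
import Cfsg.Prelude.Def_CaseTheorems
import Cfsg.Prelude.Def_Local
import Mathlib

set_option autoImplicit false

namespace CL.Go

/-- `ρ` is faithful, transitive on non-zero vectors, and vector stabilisers are `p`-groups. -/
structure Hyp (p : ℕ) {H V : Type*} [Group H] [AddCommGroup V] [Module (ZMod p) V]
    (ρ : Representation (ZMod p) H V) : Prop where
  inj : Function.Injective ρ
  tr : ∀ v w : V, v ≠ 0 → w ≠ 0 → ∃ h : H, ρ h v = w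
  st : ∀ (h : H) (v : V), v ≠ 0 → ρ h v = v → ∃ k : ℕ, h ^ (p ^ k) = 1

/-- `SL₂(F)`. -/
abbrev SL2 (F : Type*) [CommRing F] := Matrix.SpecialLinearGroup (Fin 2) F

/-- `H` has exactly one involution. -/
def UniqInv (H : Type*) [Group H] : Prop :=
  ∃ z : H, orderOf z = 2 ∧ ∀ t : H, orderOf t = 2 → t = z

/-- Case (i) of the conclusion. -/
def CaseI (p : ℕ) (H : Type*) [Group H] : Prop :=
  ∃ (F : Type) (_ : Field F) (_ : Fintype F), (∃ a : ℕ, Fintype.card F = p ^ a) ∧ 2 < Fintype.card F ∧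
    ∃ S : Subgroup H, S.Normal ∧ Nonempty (S ≃* Matrix.SpecialLinearGroup (Fin 2) F) ∧ (∃ k : ℕ, S.index = p ^ k) ∧
      (∃ h : H, S ⊔ Subgroup.zpowers h = ⊤) ∧
      Subgroup.centralizer (S : Set H) = (Subgroup.center S).map S.subtype

/-- Case (ii) of the conclusion. -/
def CaseII (p : ℕ) (H : Type*) [Group H] : Prop :=
  p = 3 ∧ ∃ S : Subgroup H, S.Normal ∧ S.index = 2 ∧ Nonempty (S ≃* Matrix.SpecialLinearGroup (Fin 2) (ZMod 5)) ∧
    Subgroup.centralizer (S : Set H) = (Subgroup.center S).map S.subtype ∧ ∀ K : Subgroup H, ¬ Subgroup.IsComplement' S K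

/-- Case (iii) of the conclusion. -/
def CaseIII (p : ℕ) (H : Type*) [Group H] : Prop :=
  p = 3 ∧ Nonempty (H ≃* Matrix.SpecialLinearGroup (Fin 2) (ZMod 13))

/-- Cases (iv)-(vi) of the conclusion. -/
def CaseReg (p : ℕ) (H : Type*) [Group H] : Prop :=
  (p = 11 ∧ Nonempty (H ≃* Matrix.SpecialLinearGroup (Fin 2) (ZMod 5))) ∨
  (p = 29 ∧ Nonempty (H ≃* Matrix.SpecialLinearGroup (Fin 2) (ZMod 5) × Multiplicative (ZMod 7))) ∨
  (p = 59 ∧ Nonempty (H ≃* Matrix.SpecialLinearGroup (Fin 2) (ZMod 5) × Multiplicative (ZMod 29)))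

end CL.Go
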