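import Cfsg.Agent.BLK.Go.Defs
import Cfsg.Agent.SOLV.Supersolvable
import Cfsg.Agent.SOLV.Fitting
import Cfsg.Agent.S0205

set_option autoImplicit false

namespace CL.Go

/-- If `F` is normal with abelian quotient, `F` is transitive on the Sylow `p`-subgroups. -/
theorem Fit.card_le {p : ℕ} [Fact p.Prime] {O : Type*} [Group O] [Finite O] (F : Subgroup O) [F.Normal]
    (h : commutator O ≤ F) : Nat.card (Sylow p O) ≤ Nat.card F := by
  obtain ⟨S⟩ : Nonempty (Sylow p O) := inferInstance
  have hN : (F ⊔ (S : Subgroup O)).Normal := Subgroup.Normal.of_commutator_le O (h.trans le_sup_left)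
  refine Nat.card_le_card_of_surjective (fun f : F => (f : O) • S) fun T => ?_
  obtain ⟨g, rfl⟩ := MulAction.exists_smul_eq O S T
  have hS : (S : Subgroup O) ≤ F ⊔ (S : Subgroup O) := le_sup_right
  have hT : ((g • S : Sylow p O) : Subgroup O) ≤ F ⊔ (S : Subgroup O) := by
    rintro _ ⟨x, hx, rfl⟩
    exact hN.conj_mem x (hS hx) g
  obtain ⟨n, hn⟩ := MulAction.exists_smul_eq (↥(F ⊔ (S : Subgroup O))) (S.subtype hS) ((g • S).subtype hT)
  rw [Sylow.smul_subtype] at hn
  have h1 := Sylow.subtype_injective hn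
  obtain ⟨f, hf, s, hs, e⟩ := Subgroup.mem_sup_of_normal_left.1 n.2
  refine ⟨⟨f, hf⟩, ?_⟩
  have h2 : s • S = S := Sylow.smul_eq_iff_mem_normalizer.2 (Subgroup.le_normalizer hs)
  rw [← h1, Subgroup.smul_def, ← e, mul_smul, h2]

/-- `O` of odd order (solvable), `F = F(O)` is a cyclic `p'`-group with `C_O(F) ≤ F`, `O / C_O(F)`
abelian; so `F S` is normal in `O` for `S` Sylow `p`, and `n_p(O) = n_p(F S) ≤ |F|`. -/
theorem exists_fit {p : ℕ} [Fact p.Prime] {O : Type*} [Group O] [Finite O] (hO : Odd (Nat.card O))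
    (hP : Cfsg.pCore p O = ⊥)
    (hc : ∀ r : ℕ, r.Prime → r ≠ 2 → r ≠ p → ∀ K : Subgroup O, IsPGroup r K → IsCyclic K) :
    ∃ F : Subgroup O, IsCyclic F ∧ (Nat.card F).Coprime p ∧ Nat.card (Sylow p O) ≤ Nat.card F := by
  have := Cfsg.Agent.S0205.result hO
  have hn := CL.isNilpotent_fittingSubgroup O
  have hb : ∀ P : Sylow p (Cfsg.fittingSubgroup O), (P : Subgroup (Cfsg.fittingSubgroup O)) = ⊥ := fun P => by
    have h1 := CL.le_pCore_of_le_fittingSubgroup (p := p) (Subgroup.map_subtype_le (P : Subgroup (Cfsg.fittingSubgroup O)))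
      (P.isPGroup'.map _)
    rw [hP, le_bot_iff] at h1
    exact (Subgroup.map_eq_bot_iff_of_injective _ (Subgroup.subtype_injective _)).1 h1
  have hz : IsZGroup (Cfsg.fittingSubgroup O) := ⟨fun r hr P => by
    by_cases h1 : r = p
    · subst h1
      rw [hb P]
      infer_instance
    by_cases h2 : r = 2
    · subst h2
      have := Fact.mk hr
      obtain ⟨k, hk⟩ := P.isPGroup'.exists_card_eq
      have h3 : 2 ^ k ∣ Nat.card O :=
        hk ▸ (Subgroup.card_subgroup_dvd_card _).trans (Subgroup.card_subgroup_dvd_card _)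
      have h4 : k = 0 := by
        by_contra h
        exact (Nat.not_even_iff_odd.2 hO) (even_iff_two_dvd.2 ((dvd_pow_self 2 h).trans h3))
      rw [h4, pow_zero] at hk
      rw [Subgroup.eq_bot_of_card_eq _ hk]
      infer_instance
    · have h3 := hc r hr h2 h1 _ (P.isPGroup'.map (Cfsg.fittingSubgroup O).subtype)
      let e := (P : Subgroup (Cfsg.fittingSubgroup O)).equivMapOfInjective _ (Subgroup.subtype_injective _)
      exact isCyclic_of_surjective e.symm e.symm.surjective⟩
  have hy : IsCyclic (Cfsg.fittingSubgroup O) := inferInstance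
  refine ⟨_, hy, ?_, Fit.card_le _ ((CL.commutator_le_centralizer_of_cyclic_normal _).trans
    (CL.centralizer_fittingSubgroup_le O))⟩
  obtain ⟨P⟩ : Nonempty (Sylow p (Cfsg.fittingSubgroup O)) := inferInstance
  have h1 := P.not_dvd_index
  rw [hb P, Subgroup.index_bot] at h1
  exact ((Nat.Prime.coprime_iff_not_dvd Fact.out).2 h1).symm

end CL.Go
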