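import Cfsg.Agent.BLK.Go.Defs
import Cfsg.Agent.CHEV.Phan5

set_option autoImplicit false

namespace CL.Go

/-- `H / L` embeds in `Out (SL₂(q)) = Z_(2, q-1) × Gal`; its odd-order subgroups (all subgroups when
`q` is even) are cyclic. (`Aut PSL₂(q) = PΓL₂(q)`, S2689 / library.) -/
theorem exists_sup_zpowers {H : Type*} [Group H] [Finite H] {F : Type*} [Field F] [Fintype F]
    (h3 : 3 < Fintype.card F) (L : Subgroup H) [L.Normal] (e : L ≃* SL2 F)
    (hC : Subgroup.centralizer (L : Set H) ≤ L) (hi : Odd L.index ∨ Even (Fintype.card F)) :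
    ∃ h : H, L ⊔ Subgroup.zpowers h = ⊤ := by
  have := h3
  let δ : H →* MulAut (SL2 F) := (MulAut.congr e).toMonoidHom.comp MulAut.conjNormal
  have hδ : ∀ g l, δ g (e l) = e (MulAut.conjNormal g l) := fun g l => by simp [δ]
  choose m τ hτ using fun g => CL.Chev.Phan.aut_SL2 (δ g)
  have tr : ∀ g s, (δ g s).1.trace = τ g s.1.trace := fun g s => by
    rw [hτ, Matrix.trace_mul_cycle, Units.inv_mul, one_mul, AddMonoidHom.map_trace]
  have su : ∀ x : F, ∃ s : SL2 F, s.1.trace = x := fun x =>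
    ⟨⟨!![x, -1; 1, 0], by simp [Matrix.det_fin_two]⟩, by simp⟩
  let φ : H →* (F ≃+* F) := MonoidHom.mk' τ fun a b => RingEquiv.ext fun x => by
    obtain ⟨s, rfl⟩ := su x
    rw [RingAut.mul_apply, ← tr, ← tr, ← tr, map_mul, MulAut.mul_apply]
  have sq : ∀ (g : H) (h : GL (Fin 2) F), (∀ s, (δ g s).1 = h.1 * s.1 * (h⁻¹).1) → IsSquare h.1.det → g ∈ L := by
    rintro g h hh ⟨c, hc⟩
    have c0 : c ≠ 0 := fun e0 => h.det_ne_zero (by rw [hc, e0, mul_zero])
    obtain ⟨l, hl⟩ := e.surjective ⟨c⁻¹ • h.1, by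
      rw [Matrix.det_smul, hc, Fintype.card_fin]; field_simp⟩
    have : (l : H)⁻¹ * g ∈ Subgroup.centralizer (L : Set H) := fun x hx => by
      have e1 : e (MulAut.conjNormal g ⟨x, hx⟩ * l) = e (l * ⟨x, hx⟩) := Subtype.ext (by
        rw [map_mul, map_mul, ← hδ, Matrix.SpecialLinearGroup.coe_mul, Matrix.SpecialLinearGroup.coe_mul, hh, hl]
        simp [Matrix.mul_assoc])
      have e2 : g * x * g⁻¹ * l = l * x := congrArg Subtype.val (e.injective e1)
      calc x * ((l : H)⁻¹ * g) = (l : H)⁻¹ * (l * x) * ((l : H)⁻¹ * g) := by group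
        _ = (l : H)⁻¹ * g * x := by rw [← e2]; group
    simpa using L.mul_mem l.2 (hC this)
  have ker : φ.ker ≤ L := fun g hg => by
    have h1 : ∀ s, (δ g s).1 = (m g).1 * s.1 * ((m g)⁻¹).1 := fun s => by
      rw [hτ, show τ g = 1 from hg]; rfl
    rcases hi with ⟨k, hk⟩ | hi
    · have h2 := sq (g * g) (m g * m g) (fun s => by
        rw [map_mul, MulAut.mul_apply, h1, h1, mul_inv_rev, Units.val_mul, Units.val_mul]
        simp only [mul_assoc]) ⟨_, Matrix.det_mul _ _⟩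
      have h4 := L.pow_index_mem g
      rw [hk, pow_succ, pow_mul, pow_two] at h4
      exact (L.mul_mem_cancel_left (L.pow_mem h2 k)).1 h4
    · exact sq g _ h1 (FiniteField.isSquare_of_char_two
        (FiniteField.even_card_iff_char_two.2 (Nat.even_iff.1 hi)) _)
  obtain ⟨⟨_, h, rfl⟩, hh⟩ := IsCyclic.exists_generator (α := φ.range)
  refine ⟨h, eq_top_iff.2 fun g _ => ?_⟩
  obtain ⟨n, hn⟩ := hh ⟨_, g, rfl⟩
  have : g * (h ^ n)⁻¹ ∈ φ.ker := by
    rw [MonoidHom.mem_ker, map_mul, map_inv, map_zpow, ← show φ h ^ n = φ g from congrArg Subtype.val hn, mul_inv_cancel]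
  simpa using Subgroup.mul_mem_sup (ker this) (Subgroup.zpow_mem_zpowers h n)

end CL.Go
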