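import Cfsg.Agent.BLK.Go.Defs
import Cfsg.Agent.S4835
import Cfsg.Agent.S4837
import Cfsg.Agent.SOLV.Core

set_option autoImplicit false

namespace CL.Go

universe u

theorem Red.exists_rep' {G A : Type*} [Group G] [CommGroup A] (p : ℕ) [Module (ZMod p) (Additive A)]
    (f : G →* MulAut A) : ∃ φ : Representation (ZMod p) G (Additive A),
      ∀ g x, φ g x = Additive.ofMul (f g x.toMul) := by
  refine ⟨⟨⟨fun g => (MonoidHom.toAdditive (f g).toMonoidHom).toZModLinearMap p, ?_⟩, fun a b => ?_⟩,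
    fun _ _ => rfl⟩
  · ext x; simp
  · ext x; simp

theorem Red.exists_rep {G A : Type*} [Group G] [CommGroup A] (p : ℕ) [NeZero p] (he : ∀ a : A, a ^ p = 1)
    (f : G →* MulAut A) : ∃ (_ : Module (ZMod p) (Additive A)) (φ : Representation (ZMod p) G (Additive A)),
      ∀ g x, φ g x = Additive.ofMul (f g x.toMul) :=
  ⟨AddCommGroup.zmodModule fun x => congrArg Additive.ofMul (he x.toMul), @Red.exists_rep' _ _ _ _ p (_) f⟩

/-- Reduction. S4835 gives `N` (elementary abelian `p`, `G` transitive on `N#`, least normal), S4837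
gives `C_G(x)` Sylow `p`. So `C_G(N)` is a normal `p`-group, contains `O_p(G)` (`O_p(G)` fixes a
non-identity element of `N`, its fixed points in `N` are normal in `G`), hence `C_G(N) = O_p(G)`;
`V := Additive N` (`AddCommGroup.zmodModule`), `ρ` by conjugation, lifted to `G ⧸ O_p(G)`. -/
theorem reduce {G : Type u} [Group G] [Finite G] (hns : ¬ Group.IsSolvable G)
    (χ : Cfsg.IrrCharacter G)
    (hχ : Nat.card {C : ConjClasses G // ∃ g ∈ C.carrier, (χ : G → ℂ) g ≠ 0} = 2) :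
    ∃ (p : ℕ) (_ : Fact p.Prime), (∀ q : ℕ, q.Prime → (Cfsg.pCore q G ≠ ⊥ ↔ q = p)) ∧
      ¬ Group.IsSolvable (G ⧸ Cfsg.pCore p G) ∧
      ∃ (V : Type u) (_ : AddCommGroup V) (_ : Module (ZMod p) V) (_ : Finite V) (_ : Nontrivial V)
        (ρ : Representation (ZMod p) (G ⧸ Cfsg.pCore p G) V), Hyp p ρ := by
  have hG : 2 < Nat.card G := by
    by_contra h
    have h0 : 0 < Nat.card G := Nat.card_pos
    have : IsCyclic G := by
      rcases (by omega : Nat.card G = 1 ∨ Nat.card G = 2) with e | e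
      · have := (Nat.card_eq_one_iff_unique.1 e).1
        infer_instance
      · have : Fact (Nat.Prime 2) := ⟨Nat.prime_two⟩
        exact isCyclic_of_prime_card e
    let := IsCyclic.commGroup (α := G)
    exact hns inferInstance
  obtain ⟨N, hN, h1, hmin, ⟨p, hp, hc, he⟩, hv, htr⟩ := Cfsg.Agent.S4835.result hG χ hχ
  have : Fact p.Prime := ⟨hp⟩
  have hNp : IsPGroup p N := fun g => ⟨1, Subtype.ext (by simpa using he g g.2)⟩
  have hC := (Cfsg.Agent.S4837.result hG χ hχ p N (fun g => (hv g).symm) hNp h1).1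
  have hO := CL.isPGroup_pCore p G
  have cen : ∀ g ∈ Cfsg.pCore p G, ∀ x ∈ N, g * x * g⁻¹ = x := fun g hg x hx => by
    by_cases e : x = 1
    · simp [e]
    obtain ⟨P, hP⟩ := hC x hx e
    have h2 := P.is_maximal' (hO.to_sup_of_normal_left P.isPGroup') le_sup_right
    have h3 : g ∈ Subgroup.centralizer ({x} : Set G) := by
      rw [hP, ← h2]; exact Subgroup.mem_sup_left hg
    rw [← Subgroup.mem_centralizer_singleton_iff.1 h3 |>.symm, mul_inv_cancel_right]
  have pw : ∀ g : G, ∀ x ∈ N, x ≠ 1 → g * x * g⁻¹ = x → ∃ k : ℕ, g ^ p ^ k = 1 := fun g x hx e h => by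
    obtain ⟨P, hP⟩ := hC x hx e
    have h3 : g ∈ (P : Subgroup G) := by
      rw [← hP, Subgroup.mem_centralizer_singleton_iff]
      exact mul_inv_eq_iff_eq_mul.1 h
    obtain ⟨k, hk⟩ := P.isPGroup' ⟨g, h3⟩
    exact ⟨k, congrArg Subtype.val hk⟩
  have : Nontrivial N := (Subgroup.nontrivial_iff_ne_bot N).2 h1
  refine ⟨p, inferInstance, fun q hq => ⟨fun h => ?_, ?_⟩, fun h => hns ?_, ?_⟩
  · by_contra hne
    have : Fact q.Prime := ⟨hq⟩
    have := IsPGroup.disjoint_of_ne q p hne _ _ (CL.isPGroup_pCore q G) hNp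
    exact h1 (this.symm.eq_bot_of_le (hmin _ inferInstance h))
  · rintro rfl e
    exact h1 (le_bot_iff.1 (e ▸ CL.le_pCore hNp))
  · have := hO.isNilpotent
    exact Group.isSolvable_of_ker_le_range (Cfsg.pCore p G).subtype (QuotientGroup.mk' (Cfsg.pCore p G)) (by simp)
  let _ : CommGroup N := { (inferInstance : Group N) with mul_comm := hc.is_comm.comm }
  obtain ⟨_, φ, hf⟩ := Red.exists_rep (A := N) p (fun x => Subtype.ext (he _ x.2)) (MulAut.conjNormal (H := N))
  have hφ : ∀ (g : G) (x y : Additive N), φ g x = y ↔ g * (x.toMul : G) * g⁻¹ = y.toMul := fun g x y =>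
    ⟨fun h => by rw [← h, hf]; rfl, fun h => (hf g x).trans (Additive.toMul.injective (Subtype.ext h))⟩
  have hk : Cfsg.pCore p G ≤ φ.ker := fun g hg =>
    LinearMap.ext fun x => (hφ g x x).2 (cen g hg _ x.toMul.2)
  have n1 : ∀ x : Additive N, x ≠ 0 → (x.toMul : G) ≠ 1 := fun x hx e =>
    hx (Additive.toMul.injective (Subtype.ext e))
  refine ⟨Additive N, inferInstance, inferInstance, inferInstance, inferInstance,
    QuotientGroup.lift _ φ hk, ?_, fun v w hv hw => ?_, fun h v hv e => ?_⟩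
  · refine (injective_iff_map_eq_one _).2 fun h e => ?_
    obtain ⟨g, rfl⟩ := QuotientGroup.mk_surjective h
    obtain ⟨v, hv⟩ := exists_ne (0 : Additive N)
    refine (QuotientGroup.eq_one_iff g).2 (CL.le_pCore (N := φ.ker) (fun a => ?_) e)
    obtain ⟨k, hk⟩ := pw a _ v.toMul.2 (n1 v hv) ((hφ a v v).1 (LinearMap.congr_fun a.2 v))
    exact ⟨k, Subtype.ext hk⟩
  · obtain ⟨g, hg⟩ := htr _ v.toMul.2 _ w.toMul.2 (n1 v hv) (n1 w hw)
    exact ⟨g, (hφ g v w).2 hg⟩
  · obtain ⟨g, rfl⟩ := QuotientGroup.mk_surjective h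
    obtain ⟨k, hk⟩ := pw g _ v.toMul.2 (n1 v hv) ((hφ g v v).1 e)
    exact ⟨k, by rw [← QuotientGroup.mk_pow, hk, QuotientGroup.mk_one]⟩

end CL.Go
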