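import Cfsg.Agent.BLK.Go.Defs
import Cfsg.Agent.S0689

set_option autoImplicit false

namespace CL.Go

variable {p : ℕ} [Fact p.Prime] {H V : Type*} [Group H] [Finite H] [AddCommGroup V]
  [Module (ZMod p) V] [Finite V] [Nontrivial V] {ρ : Representation (ZMod p) H V}

/-- `p ∤ |H|`: `H` is regular on non-zero vectors; S0689 for the image of `H` in `V ≃ₗ V`. -/
theorem Hyp.caseReg (h : Hyp p ρ) (hns : ¬ Group.IsSolvable H) (hp : ¬ p ∣ Nat.card H) :
    CaseReg p H := by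
  have pp : p.Prime := Fact.out
  let f : H →* (V ≃ₗ[ZMod p] V) :=
    (LinearMap.GeneralLinearGroup.generalLinearEquiv (ZMod p) V).toMonoidHom.comp ρ.toHomUnits
  have hf : ∀ g v, f g v = ρ g v := fun _ _ => rfl
  have fi : Function.Injective f := fun a b e => h.inj (LinearMap.ext fun v => by rw [← hf, ← hf, e])
  have e : H ≃* f.range := MonoidHom.ofInjective fi
  have fr : ∀ g v, v ≠ 0 → ρ g v = v → g = 1 := fun g v hv e => by
    obtain ⟨k, hk⟩ := h.st g v hv e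
    have h1 : (orderOf g).Coprime p := ((pp.coprime_iff_not_dvd.2 hp).symm).of_dvd_left (orderOf_dvd_natCard g)
    exact orderOf_eq_one_iff.1 ((h1.pow_right k).eq_one_of_dvd (orderOf_dvd_of_pow_eq_one hk))
  have hc : ∀ r : ℕ, r.Prime → Nat.card V = r ^ 2 → p = r := fun r hr e => by
    have : Finite (ZMod p) := inferInstance
    rw [Module.natCard_eq_pow_finrank (K := ZMod p), Nat.card_zmod] at e
    have : p ∣ r ^ 2 := e ▸ dvd_pow_self p Module.finrank_pos.ne'
    exact (Nat.prime_dvd_prime_iff_eq pp hr).1 (pp.dvd_of_dvd_pow this)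
  rcases Cfsg.Agent.S0689.result f.range (fun v w hv hw => by
    obtain ⟨g, hg⟩ := h.tr v w hv hw
    refine ⟨⟨f g, g, rfl⟩, hg, ?_⟩
    rintro ⟨_, g', rfl⟩ hg'
    have : g⁻¹ * g' = 1 := fr _ v hv (by
      rw [map_mul, Module.End.mul_apply, ← hf g', hg', ← hg, ← Module.End.mul_apply, ← map_mul, inv_mul_cancel, map_one,
        Module.End.one_apply])
    exact Subtype.ext (congrArg f (inv_mul_eq_one.1 this).symm))
    (fun _ => hns (Group.isSolvable_of_isSolvable_injective (f := e.toMonoidHom) e.injective)) with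
    ⟨h1, ⟨e'⟩⟩ | ⟨h1, ⟨e'⟩⟩ | ⟨h1, ⟨e'⟩⟩
  · exact .inl ⟨hc 11 (by norm_num) h1, ⟨e.trans e'⟩⟩
  · exact .inr (.inl ⟨hc 29 (by norm_num) h1, ⟨e.trans e'⟩⟩)
  · exact .inr (.inr ⟨hc 59 (by norm_num) h1, ⟨e.trans e'⟩⟩)

end CL.Go
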