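import Cfsg.Agent.BLK.Go.Defs
import Cfsg.Agent.CLAS.SL2Sylow
import Cfsg.Agent.CLAS.SLBasic
import Cfsg.Agent.S0813

set_option autoImplicit false

namespace CL.Go

variable {F : Type*} [Field F] [Fintype F]

theorem card_sl2 : Nat.card (SL2 F) = Fintype.card F * (Fintype.card F ^ 2 - 1) := by
  rw [CL.SL.card_SL_two, Nat.card_eq_fintype_card]

theorem card_sylow_char {p a : ℕ} [Fact p.Prime] (hF : Fintype.card F = p ^ a) :
    Nat.card (Sylow p (SL2 F)) = Fintype.card F + 1 := by
  have hc : CharP F p := charP_of_card_eq_prime_pow hF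
  rw [← CL.SL2.card_projectiveLine,
    Nat.card_congr (Equiv.ofBijective _ (CL.SL2.bijective_sylowOfVec (F := F) p))]

/-- the upper unitriangular matrices as a homomorphism -/
def SLX.up : Multiplicative F →* SL2 F where
  toFun c := ⟨!![1, c.toAdd; 0, 1], by simp [Matrix.det_fin_two_of]⟩
  map_one' := by
    ext i j
    fin_cases i <;> fin_cases j <;> simp
  map_mul' a b := by
    apply Subtype.ext
    change !![1, (a * b).toAdd; 0, 1] = !![1, a.toAdd; 0, 1] * !![1, b.toAdd; 0, 1]
    simp [add_comm]

omit [Fintype F] in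
theorem SLX.up_inj : Function.Injective (SLX.up (F := F)) := by
  intro a b h
  have : a.toAdd = b.toAdd := congrArg (fun g : SL2 F => g.1 0 1) h
  exact Multiplicative.toAdd.injective this

/-- The unipotent subgroup is elementary abelian of order `|F|`. -/
theorem card_eq_of_cyclic {l a : ℕ} (hl : l.Prime) (hF : Fintype.card F = l ^ a)
    (hc : ∀ K : Subgroup (SL2 F), IsPGroup l K → IsCyclic K) : Fintype.card F = l := by
  have : Fact l.Prime := ⟨hl⟩
  have hch : CharP F l := charP_of_card_eq_prime_pow hF
  have e := MonoidHom.ofInjective (SLX.up_inj (F := F))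
  have hp : IsPGroup l (Multiplicative F) := IsPGroup.of_card (n := a) (by simpa using hF)
  have := hc _ (hp.of_equiv e)
  have : IsCyclic (Multiplicative F) := isCyclic_of_surjective e.symm e.symm.surjective
  have h1 : Monoid.exponent (Multiplicative F) ∣ l :=
    Monoid.exponent_dvd_of_forall_pow_eq_one fun g => by
      apply Multiplicative.toAdd.injective
      simp
  rw [IsCyclic.exponent_eq_card, Nat.card_eq_fintype_card, Fintype.card_multiplicative] at h1
  exact ((Nat.dvd_prime hl).1 h1).resolve_left Fintype.one_lt_card.ne'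

/-- S0813 with `f = 1`: `|Aut PSL₂(l)| = |PGL₂(l)| = |SL₂(l)|`. -/
theorem card_aut_prime (hl : (Fintype.card F).Prime) (h3 : 3 < Fintype.card F) :
    Nat.card (MulAut (SL2 F ⧸ Subgroup.center (SL2 F))) = Nat.card (SL2 F) := by
  have : Fact (Fintype.card F).Prime := ⟨hl⟩
  have h := Cfsg.Agent.S0813.result (F := F) (Fintype.card F) 1 le_rfl (pow_one _).symm 2 le_rfl
    (fun _ => by rw [pow_one]; omega)
  rw [CL.SL.card_PGL_eq_card_SL] at h
  simpa using h

end CL.Go
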