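import Cfsg.Agent.BLK.Go.Defs
import Cfsg.Agent.KSG.SL2Torus

set_option autoImplicit false

namespace CL.Go

variable {F : Type*} [Field F] [Fintype F]

theorem SLx.key {p : ℕ} [hp : Fact p.Prime] (h2 : p ≠ 2) (h0 : ¬ p ∣ Fintype.card F)
    (h : p ∣ (Fintype.card F + 1) * (Fintype.card F - 1)) : ∃ c, p ∣ c ∧
      (c = Fintype.card F + 1 ∨ c = Fintype.card F - 1) ∧
      Nat.card (Sylow p (SL2 F)) * (2 * c) = Fintype.card F * (Fintype.card F + 1) * (Fintype.card F - 1) := by
  classical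
  have hG : Nat.card (SL2 F) = Fintype.card F * (Fintype.card F + 1) * (Fintype.card F - 1) := by
    rw [GL2.card_SL2, mul_assoc, ← Nat.sq_sub_sq, one_pow]
  obtain ⟨P⟩ : Nonempty (Sylow p (SL2 F)) := inferInstance
  have hP : (P : Subgroup (SL2 F)) ≠ ⊥ := P.ne_bot_of_dvd_card (by rw [hG, mul_assoc]; exact h.mul_left _)
  have := (P : Subgroup (SL2 F)).nontrivial_iff_ne_bot.2 hP
  have := P.isPGroup'.center_nontrivial
  obtain ⟨d, d1⟩ := exists_ne (1 : Subgroup.center P)
  obtain ⟨k, hk⟩ := P.isPGroup' d.1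
  have hk' : (d.1.1 : SL2 F) ^ p ^ k = 1 := congrArg Subtype.val hk
  have d1' : (d.1.1 : SL2 F) ≠ 1 := fun e => d1 (Subtype.ext (Subtype.ext e))
  have hd : p ∣ orderOf (d.1.1 : SL2 F) := by
    obtain ⟨j, -, e⟩ := (Nat.dvd_prime_pow hp.out).1 (orderOf_dvd_of_pow_eq_one hk')
    rw [e]
    exact dvd_pow_self _ fun j0 => d1' (by rwa [j0, pow_zero, orderOf_eq_one_iff] at e)
  have hs : ¬ GL2.IsScal (d.1.1 : SL2 F).1 := fun e => h2 <|
    (Nat.prime_dvd_prime_iff_eq hp.out Nat.prime_two).1 (hd.trans (orderOf_dvd_of_pow_eq_one (by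
      rcases GL2.isScal_SL_iff.1 e with e | e <;> simp [e])))
  obtain ⟨r, hr⟩ := CharP.exists F
  obtain ⟨n, hr', hn⟩ := FiniteField.card F r
  have := Fact.mk hr'
  have R : GL2.Reg (d.1.1 : SL2 F) := GL2.reg_of_coprime r hs (n := p ^ k) (fun e => h0 (by
    rw [← (Nat.prime_dvd_prime_iff_eq hr' hp.out).1 (hr'.dvd_of_dvd_pow e), hn]
    exact dvd_pow_self _ n.ne_zero)) (by rw [hk']; exact GL2.isScal_one)
  have le : (P : Subgroup (SL2 F)) ≤ GL2.centSL (d.1.1 : SL2 F).1 := fun x hx =>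
    GL2.mem_centSL_iff.2 (congrArg Subtype.val (Subgroup.mem_center_iff.1 d.2 ⟨x, hx⟩))
  have e : Subgroup.normalizer (P : Set (SL2 F)) = Subgroup.normalizer (GL2.centSL (d.1.1 : SL2 F).1 : Set (SL2 F)) := by
    refine le_antisymm (fun g hg => R.mem_normalizer_of_conj_mem (le ((Subgroup.mem_normalizer_iff.1 hg _).1 d.1.2)))
      fun g hg => Subgroup.mem_normalizer_fintype fun x hx => ?_
    by_cases c : g ∈ GL2.centSL (d.1.1 : SL2 F).1
    · rwa [GL2.centSL_comm hs c (le hx), mul_inv_cancel_right]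
    · rw [R.conj_eq_inv hg c (le hx)]
      exact (P : Subgroup (SL2 F)).inv_mem hx
  refine ⟨_, hd.trans (Subgroup.orderOf_dvd_natCard _ (GL2.self_mem_centSL _)), R.cases.imp And.right And.right, ?_⟩
  rw [← R.card_normalizer, ← e, P.card_eq_index_normalizer, Subgroup.index_mul_card, hG]

/-- `p` odd dividing `q - 1`: a Sylow `p`-subgroup lies in the split torus (order `q - 1`), its
normaliser has order `2 (q - 1)`. -/
theorem card_sylow_split {p : ℕ} [Fact p.Prime] (hp : p ≠ 2) (h : p ∣ Fintype.card F - 1) :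
    Nat.card (Sylow p (SL2 F)) * 2 = Fintype.card F * (Fintype.card F + 1) := by
  have q1 : 1 < Fintype.card F := Fintype.one_lt_card
  have pp : p.Prime := Fact.out
  obtain ⟨c, h1, rfl | rfl, h3⟩ := SLx.key (F := F) hp (fun e => pp.one_lt.ne' (Nat.dvd_one.1 (by
    have := Nat.dvd_sub e h
    rwa [show Fintype.card F - (Fintype.card F - 1) = 1 by omega] at this))) (h.mul_left _)
  · have := Nat.dvd_sub h1 h
    rw [show Fintype.card F + 1 - (Fintype.card F - 1) = 2 by omega] at this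
    exact absurd ((Nat.prime_dvd_prime_iff_eq pp Nat.prime_two).1 this) hp
  · exact Nat.eq_of_mul_eq_mul_right (show 0 < Fintype.card F - 1 by omega) (by rw [← h3, mul_assoc])

/-- `p` odd dividing `q + 1`: normaliser of order `2 (q + 1)`. -/
theorem card_sylow_nonsplit {p : ℕ} [Fact p.Prime] (hp : p ≠ 2) (h : p ∣ Fintype.card F + 1) :
    Nat.card (Sylow p (SL2 F)) * 2 = Fintype.card F * (Fintype.card F - 1) := by
  have q1 : 1 < Fintype.card F := Fintype.one_lt_card
  have pp : p.Prime := Fact.out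
  obtain ⟨c, h1, rfl | rfl, h3⟩ := SLx.key (F := F) hp (fun e => pp.one_lt.ne' (Nat.dvd_one.1 (by
    have := Nat.dvd_sub h e
    rwa [show Fintype.card F + 1 - Fintype.card F = 1 by omega] at this))) (h.mul_right _)
  · exact Nat.eq_of_mul_eq_mul_right (show 0 < Fintype.card F + 1 by omega) (by rw [mul_assoc, h3]; ring)
  · have := Nat.dvd_sub h h1
    rw [show Fintype.card F + 1 - (Fintype.card F - 1) = 2 by omega] at this
    exact absurd ((Nat.prime_dvd_prime_iff_eq pp Nat.prime_two).1 this) hp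

end CL.Go
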