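import Cfsg.Agent.BLK.Go.Basic

set_option autoImplicit false

namespace CL.Go

variable {p : ℕ} [Fact p.Prime] {H V : Type*} [Group H] [Finite H] [AddCommGroup V]
  [Module (ZMod p) V] [Finite V] [Nontrivial V] {ρ : Representation (ZMod p) H V}

/-- An abelian `p'`-subgroup `F` centralising a non-abelian `L`. If the `F`-span of some `v ≠ 0` is
`V` for every `v ≠ 0` then `L` is abelian (`g v = a v`, `g' v = a' v` with `a, a'` in the algebra
spanned by `ρ F`, so `g g' v = a' a v = g' g v`). So there is an invariant `0 ≠ W ≠ V`, `|W| = p ^ w`,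
`|F|` divides `p ^ w - 1` and `p ^ n - 1` (`Hyp.card_dvd`), hence `p ^ (n - w) - 1`. -/
theorem Hyp.sq_le (h : Hyp p ρ) (L F : Subgroup H) (hL : ¬ IsMulCommutative L)
    (hF : IsMulCommutative F) (hFp : (Nat.card F).Coprime p)
    (hFL : F ≤ Subgroup.centralizer (L : Set H)) : (Nat.card F + 1) ^ 2 ≤ Nat.card V := by
  obtain ⟨v, hv⟩ := exists_ne (0 : V)
  let A : Submodule (ZMod p) (Module.End (ZMod p) V) := Submodule.span (ZMod p) ((fun f => ρ f) '' (F : Set H))
  have hc : ∀ x : Module.End (ZMod p) V, (∀ f ∈ F, Commute x (ρ f)) → ∀ a ∈ A, Commute x a := by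
    intro x hx a ha
    induction ha using Submodule.span_induction with
    | mem a ha => obtain ⟨f, hf, rfl⟩ := ha; exact hx f hf
    | zero => exact Commute.zero_right _
    | add a b _ _ h1 h2 => exact h1.add_right h2
    | smul c a _ h1 => exact h1.smul_right c
  have hm : ∀ k ∈ F, ∀ a ∈ A, ρ k * a ∈ A := by
    intro k hk a ha
    induction ha using Submodule.span_induction with
    | mem a ha =>
      obtain ⟨f, hf, rfl⟩ := ha
      exact Submodule.subset_span ⟨k * f, F.mul_mem hk hf, map_mul ρ k f⟩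
    | zero => rw [mul_zero]; exact A.zero_mem
    | add a b _ _ h1 h2 => rw [mul_add]; exact A.add_mem h1 h2
    | smul c a _ h1 => rw [mul_smul_comm]; exact A.smul_mem c h1
  have hLA : ∀ g ∈ L, ∀ a ∈ A, Commute (ρ g) a := fun g hg => hc _ fun f hf =>
    Commute.map (show Commute g f from hFL hf g hg) ρ
  have hAA : ∀ a ∈ A, ∀ b ∈ A, Commute a b := fun a ha => hc _ fun f hf => (hc _ (fun f' hf' =>
    Commute.map (show Commute f f' from congrArg Subtype.val (hF.is_comm.comm (⟨f, hf⟩ : F) ⟨f', hf'⟩)) ρ) a ha).symm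
  let W : Submodule (ZMod p) V := A.map (LinearMap.applyₗ v)
  have hW : ∀ k ∈ F, ∀ w ∈ W, ρ k w ∈ W := by
    rintro k hk _ ⟨a, ha, rfl⟩
    exact ⟨ρ k * a, hm k hk a ha, rfl⟩
  have hvW : v ∈ W := ⟨ρ 1, Submodule.subset_span ⟨1, F.one_mem, rfl⟩, by simp⟩
  have hWt : W ≠ ⊤ := by
    intro e
    apply hL
    have hs : ∀ w : V, ∃ a ∈ A, a v = w := fun w => (e ▸ Submodule.mem_top : w ∈ W)
    refine ⟨⟨fun g g' => Subtype.ext (h.inj ?_)⟩⟩
    obtain ⟨a, ha, ea⟩ := hs (ρ g v)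
    have e1 : ρ g = a := by
      ext w
      obtain ⟨b, hb, rfl⟩ := hs w
      calc ρ g (b v) = b (ρ g v) := LinearMap.congr_fun (hLA g g.2 b hb).eq v
        _ = a (b v) := by rw [← ea]; exact LinearMap.congr_fun (hAA b hb a ha).eq v
    rw [Subgroup.coe_mul, Subgroup.coe_mul, map_mul, map_mul, e1]
    exact (hLA g' g'.2 a ha).eq.symm
  have d1 := h.card_dvd F hFp W hW
  have d2 := h.card_dvd F hFp ⊤ fun _ _ _ _ => Submodule.mem_top
  rw [Nat.card_congr (Submodule.topEquiv (R := ZMod p) (M := V)).toEquiv] at d2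
  have e : Nat.card V = Nat.card W * Nat.card (V ⧸ W) := Submodule.card_eq_card_quotient_mul_card W
  have : Nontrivial W := ⟨⟨⟨v, hvW⟩, 0, fun e => hv (congrArg Subtype.val e)⟩⟩
  have : Nontrivial (V ⧸ W) := Submodule.Quotient.nontrivial_iff.2 hWt
  have : Finite (V ⧸ W) := Finite.of_surjective _ W.mkQ_surjective
  have a1 : 1 < Nat.card W := Finite.one_lt_card
  have b1 : 1 < Nat.card (V ⧸ W) := Finite.one_lt_card
  rw [e] at d2 ⊢
  generalize Nat.card W = a at *
  generalize Nat.card (V ⧸ W) = b at *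
  obtain ⟨a, rfl⟩ : ∃ a', a = a' + 1 := ⟨a - 1, by omega⟩
  obtain ⟨b, rfl⟩ : ∃ b', b = b' + 1 := ⟨b - 1, by omega⟩
  rw [Nat.add_sub_cancel] at d1
  rw [show (a + 1) * (b + 1) - 1 = a * (b + 1) + b by rw [add_mul a, one_mul, ← add_assoc, Nat.add_sub_cancel]] at d2
  have d3 : Nat.card F ∣ b := (Nat.dvd_add_right (d1.mul_right _)).1 d2
  rw [sq]
  exact Nat.mul_le_mul (Nat.succ_le_succ (Nat.le_of_dvd (by omega) d1)) (Nat.succ_le_succ (Nat.le_of_dvd (by omega) d3))

end CL.Go
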